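import Mathlib
import Cfsg.Prelude.Def_Local
import Cfsg.Agent.Lib.Helper2.Comp19
import Cfsg.Agent.Lib.Lead.PCore2

set_option autoImplicit false
set_option linter.unusedSectionVars false
set_option linter.style.haveILetI false

/-! the upper `p`-series and `p`-length one -/

namespace Cfsg.Agent.Lib.Helper2.Comp

open Cfsg

variable {G : Type*} [Group G]

theorem comap_mk_bot_pPrimeCore [Finite G] (p : ℕ) [Fact p.Prime] (N : Subgroup G) [N.Normal]
    (hN : N = ⊥) : (pPrimeCore p (G ⧸ N)).comap (QuotientGroup.mk' N) = pPrimeCore p G := by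
  have hinj : Function.Injective (QuotientGroup.mk' N) := by
    rw [← MonoidHom.ker_eq_bot_iff, QuotientGroup.ker_mk', hN]
  apply le_antisymm
  · apply le_pPrimeCore ((Cfsg.Agent.Lib.Lead.pPrimeCore_normal p _).comap _)
    exact Nat.Coprime.coprime_dvd_left (Subgroup.card_comap_dvd_of_injective _ _ hinj)
      (Cfsg.Agent.Lib.Lead.pPrimeCore_coprime p)
  · rw [← Subgroup.map_le_iff_le_comap]
    apply le_pPrimeCore ((Cfsg.Agent.Lib.Lead.pPrimeCore_normal p G).map _
      (QuotientGroup.mk'_surjective N))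
    exact Nat.Coprime.coprime_dvd_left (Subgroup.card_map_dvd _ _)
      (Cfsg.Agent.Lib.Lead.pPrimeCore_coprime p)

theorem upperPSeries_one [Finite G] (p : ℕ) [Fact p.Prime] :
    (upperPSeries p G 1).1 = pPrimeCore p G := by
  have h : (upperPSeries p G 1).1 =
      (pPrimeCore p (G ⧸ (upperPSeries p G 0).1)).comap (QuotientGroup.mk' _) := by
    simp [upperPSeries]
  rw [h]; exact comap_mk_bot_pPrimeCore p _ rfl

theorem comap_pCore_eq (p : ℕ) (N : Subgroup G) [N.Normal] (hN : N = pPrimeCore p G) :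
    (pCore p (G ⧸ N)).comap (QuotientGroup.mk' N) = pPrimePCore p G := by
  subst hN; rfl

theorem upperPSeries_two [Finite G] (p : ℕ) [Fact p.Prime] :
    (upperPSeries p G 2).1 = pPrimePCore p G := by
  have h : (upperPSeries p G 2).1 =
      (pCore p (G ⧸ (upperPSeries p G 1).1)).comap (QuotientGroup.mk' _) := by
    simp [upperPSeries]
  rw [h]; exact comap_pCore_eq p _ (upperPSeries_one p)

theorem index_coprime_of_comap_eq_top [Finite G] (p : ℕ) [Fact p.Prime] (N : Subgroup G) [N.Normal]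
    (h : (pPrimeCore p (G ⧸ N)).comap (QuotientGroup.mk' N) = ⊤) : N.index.Coprime p := by
  have h1 : pPrimeCore p (G ⧸ N) = ⊤ := by
    apply Subgroup.comap_injective (QuotientGroup.mk'_surjective N)
    rw [h, Subgroup.comap_top]
  have h2 := Cfsg.Agent.Lib.Lead.pPrimeCore_coprime (G := G ⧸ N) p
  rw [h1, Subgroup.card_top] at h2
  rwa [Subgroup.index_eq_card]

theorem index_pPrimePCore_coprime_of_pLengthLE_one [Finite G] (p : ℕ) [Fact p.Prime]
    (hpl : PLengthLE p 1 G) : (pPrimePCore p G).index.Coprime p := by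
  have h3 : (upperPSeries p G 3).1 =
      (pPrimeCore p (G ⧸ (upperPSeries p G 2).1)).comap (QuotientGroup.mk' _) := by
    simp [upperPSeries]
  have hpl' : (upperPSeries p G 3).1 = ⊤ := hpl
  rw [h3] at hpl'
  have h4 := index_coprime_of_comap_eq_top p _ hpl'
  rwa [upperPSeries_two p] at h4

theorem sylow_le_pPrimePCore_of_pLengthLE_one [Finite G] (p : ℕ) [Fact p.Prime]
    (hpl : PLengthLE p 1 G) (S : Sylow p G) : (S : Subgroup G) ≤ pPrimePCore p G := by
  intro x hx
  obtain ⟨k, hk⟩ := (IsPGroup.iff_orderOf.mp S.2) ⟨x, hx⟩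
  rw [Subgroup.orderOf_mk] at hk
  have hxk : x ^ (p ^ k) = 1 := by rw [← hk]; exact pow_orderOf_eq_one x
  exact mem_of_subnormal_of_index_coprime (pPrimePCore_normal' p).isSubnormal
    (index_pPrimePCore_coprime_of_pLengthLE_one p hpl) hxk

/-- `O_{p',p}(G) = O_{p'}(G) S` for a Sylow `p`-subgroup `S` contained in it -/
theorem pPrimePCore_le_sup_sylow [Finite G] (p : ℕ) [Fact p.Prime] (S : Sylow p G)
    (hS : (S : Subgroup G) ≤ pPrimePCore p G) :
    pPrimePCore p G ≤ pPrimeCore p G ⊔ (S : Subgroup G) := by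
  have hOR : pPrimeCore p G ≤ pPrimePCore p G := pPrimeCore_le_comap p _
  rw [← Subgroup.relIndex_eq_one]
  have h1 : (pPrimeCore p G ⊔ (S : Subgroup G)).relIndex (pPrimePCore p G) ∣
      (pPrimeCore p G).relIndex (pPrimePCore p G) :=
    Subgroup.relIndex_dvd_of_le_left _ le_sup_left
  have h2 : (pPrimeCore p G ⊔ (S : Subgroup G)).relIndex (pPrimePCore p G) ∣
      (S : Subgroup G).relIndex (pPrimePCore p G) :=
    Subgroup.relIndex_dvd_of_le_left _ le_sup_right
  have e2 : (pPrimeCore p G).relIndex (pPrimePCore p G) =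
      Nat.card (pCore p (G ⧸ pPrimeCore p G)) := by
    have e3 : pPrimeCore p G = (⊥ : Subgroup (G ⧸ pPrimeCore p G)).comap
        (QuotientGroup.mk' (pPrimeCore p G)) := by
      rw [MonoidHom.comap_bot, QuotientGroup.ker_mk']
    conv_lhs => rw [e3]
    rw [Subgroup.relIndex_comap]
    have e4 : (pPrimePCore p G).map (QuotientGroup.mk' (pPrimeCore p G)) =
        pCore p (G ⧸ pPrimeCore p G) :=
      Subgroup.map_comap_eq_self_of_surjective (QuotientGroup.mk'_surjective _) _
    rw [e4, Subgroup.relIndex_bot_left]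
  obtain ⟨a, ha⟩ := IsPGroup.iff_card.mp (pCore_quotient_isPGroup (X := G) p)
  rw [e2, ha] at h1
  obtain ⟨j, hj, hj'⟩ := (Nat.dvd_prime_pow (Fact.out : p.Prime)).mp h1
  rcases Nat.eq_zero_or_pos j with h0 | hpos
  · rw [hj', h0, pow_zero]
  · exfalso
    apply S.not_dvd_index
    have h3 : (S : Subgroup G).relIndex (pPrimePCore p G) ∣ (S : Subgroup G).index :=
      ⟨_, (Subgroup.relIndex_mul_index hS).symm⟩
    refine dvd_trans ?_ (h2.trans h3)
    rw [hj']
    exact dvd_pow_self p hpos.ne'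

/-- in a group of `p`-length one, `G = O_{p'}(G) N_G(S)` -/
theorem pPrimeCore_sup_normalizer_eq_top [Finite G] (p : ℕ) [Fact p.Prime]
    (hpl : PLengthLE p 1 G) (S : Sylow p G) :
    pPrimeCore p G ⊔ Subgroup.normalizer ((S : Subgroup G) : Set G) = ⊤ := by
  have hS := sylow_le_pPrimePCore_of_pLengthLE_one p hpl S
  haveI := pPrimePCore_normal' (X := G) p
  have h1 := Sylow.normalizer_sup_eq_top' S hS
  rw [eq_top_iff, ← h1]
  apply sup_le le_sup_right
  refine (pPrimePCore_le_sup_sylow p S hS).trans ?_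
  exact sup_le le_sup_left (Subgroup.le_normalizer.trans le_sup_right)

end Cfsg.Agent.Lib.Helper2.Comp
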