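import Mathlib
import Cfsg.Prelude.Def_Local
import Cfsg.Agent.Lib.Helper2.Comp20
import Cfsg.Agent.Lib.Helper2.PLen
import Cfsg.Agent.Lib.Lead.Coprime

set_option autoImplicit false
set_option linter.unusedSectionVars false
set_option linter.style.haveILetI false

/-! maximal elementary abelian subgroups modulo `O_{p'}` -/

namespace Cfsg.Agent.Lib.Helper2.Comp

open Cfsg

theorem isElementaryAbelian_sup_zpowers {G : Type*} [Group G] {p : ℕ} {E : Subgroup G}
    (hE : IsElementaryAbelian p E) {z : G} (hz : ∀ e ∈ E, e * z = z * e) (hzp : z ^ p = 1) :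
    IsElementaryAbelian p (E ⊔ Subgroup.zpowers z) := by
  have hzC : Subgroup.zpowers z ≤ Subgroup.centralizer (E : Set G) := by
    rw [Subgroup.zpowers_le, Subgroup.mem_centralizer_iff]; intro e he; exact hz e he
  have hdec : ∀ g ∈ E ⊔ Subgroup.zpowers z, ∃ e ∈ E, ∃ h ∈ Subgroup.zpowers z, g = e * h :=
    fun g hg => Cfsg.Agent.Lib.Lead.mem_sup_of_le_normalizer
      (hzC.trans (Subgroup.centralizer_le_normalizer _)) hg
  have := hE.1
  have hcomm : ∀ a ∈ E ⊔ Subgroup.zpowers z, ∀ b ∈ E ⊔ Subgroup.zpowers z, a * b = b * a := by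
    intro a ha b hb
    obtain ⟨e₁, he₁, h₁, hh₁, rfl⟩ := hdec a ha
    obtain ⟨e₂, he₂, h₂, hh₂, rfl⟩ := hdec b hb
    have c1 : e₁ * e₂ = e₂ * e₁ := setLike_mul_comm he₁ he₂
    have c2 : e₁ * h₂ = h₂ * e₁ := Subgroup.mem_centralizer_iff.mp (hzC hh₂) e₁ he₁
    have c3 : e₂ * h₁ = h₁ * e₂ := Subgroup.mem_centralizer_iff.mp (hzC hh₁) e₂ he₂
    have c4 : h₁ * h₂ = h₂ * h₁ := by
      obtain ⟨i, rfl⟩ := Subgroup.mem_zpowers_iff.mp hh₁
      obtain ⟨j, rfl⟩ := Subgroup.mem_zpowers_iff.mp hh₂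
      rw [← zpow_add, ← zpow_add, add_comm]
    calc e₁ * h₁ * (e₂ * h₂) = e₁ * (h₁ * e₂) * h₂ := by group
      _ = e₁ * (e₂ * h₁) * h₂ := by rw [c3]
      _ = (e₁ * e₂) * (h₁ * h₂) := by group
      _ = (e₂ * e₁) * (h₂ * h₁) := by rw [c1, c4]
      _ = e₂ * (e₁ * h₂) * h₁ := by group
      _ = e₂ * (h₂ * e₁) * h₁ := by rw [c2]
      _ = e₂ * h₂ * (e₁ * h₁) := by group
  refine ⟨IsMulCommutative.of_setLike_mul_comm hcomm, ?_⟩
  intro a ha
  obtain ⟨e, he, h, hh, rfl⟩ := hdec a ha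
  have c : Commute e h := Subgroup.mem_centralizer_iff.mp (hzC hh) e he
  rw [c.mul_pow, hE.2 e he]
  obtain ⟨i, rfl⟩ := Subgroup.mem_zpowers_iff.mp hh
  rw [← zpow_natCast, ← zpow_mul, mul_comm, zpow_mul, zpow_natCast, hzp, one_zpow, mul_one]

theorem isPGroup_of_isElementaryAbelian {G : Type*} [Group G] {p : ℕ} {E : Subgroup G}
    (hE : IsElementaryAbelian p E) : IsPGroup p E := by
  intro x
  refine ⟨1, ?_⟩
  rw [pow_one]
  exact Subtype.ext (by simpa using hE.2 x.1 x.2)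

theorem isElementaryAbelian_map {G H : Type*} [Group G] [Group H] {p : ℕ} {E : Subgroup G}
    (hE : IsElementaryAbelian p E) (f : G →* H) : IsElementaryAbelian p (E.map f) := by
  have := hE.1
  refine ⟨inferInstance, ?_⟩
  rintro _ ⟨e, he, rfl⟩
  rw [← map_pow, hE.2 e he, map_one]

/-- an element of order dividing `p` of `G / O_{p'}(G)` centralizing the image of a maximal
elementary abelian `p`-subgroup `E` lies in the image of `E` -/
theorem mem_map_of_maximal_elementaryAbelian {G : Type*} [Group G] [Finite G] (p : ℕ)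
    [Fact p.Prime] {E : Subgroup G} (hE : IsElementaryAbelian p E)
    (hEmax : ∀ B : Subgroup G, IsElementaryAbelian p B → E ≤ B → B = E)
    {x : G ⧸ pPrimeCore p G} (hxp : x ^ p = 1)
    (hxE : x ∈ Subgroup.centralizer ((E.map (QuotientGroup.mk' (pPrimeCore p G)) : Subgroup _) : Set _)) :
    x ∈ E.map (QuotientGroup.mk' (pPrimeCore p G)) := by
  have hEp : IsPGroup p E := isPGroup_of_isElementaryAbelian hE
  obtain ⟨r, rfl⟩ := QuotientGroup.mk'_surjective (pPrimeCore p G) x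
  obtain ⟨d, hd, hrd⟩ := exists_mul_mem_centralizer p hEp hxE
  obtain ⟨y, hy⟩ : ∃ y, y = r * d := ⟨_, rfl⟩
  rw [← hy] at hrd
  have hπy : QuotientGroup.mk' (pPrimeCore p G) y = QuotientGroup.mk' (pPrimeCore p G) r := by
    rw [hy, map_mul, mk_eq_one_of_mem p hd, mul_one]
  rw [← hπy] at hxp ⊢
  have hyp : y ^ p ∈ pPrimeCore p G := by
    apply mem_of_mk_eq_one p
    rw [map_pow]; exact hxp
  obtain ⟨m, hm⟩ : ∃ m, m = Nat.card (pPrimeCore p G) := ⟨_, rfl⟩
  have hmc : m.Coprime p := hm ▸ Cfsg.Agent.Lib.Lead.pPrimeCore_coprime p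
  have hbez : (1 : ℤ) = m * Int.gcdA m p + p * Int.gcdB m p := by
    have h1 := Int.gcd_eq_gcd_ab m p
    rw [← h1]
    have h2 : Int.gcd (m : ℤ) (p : ℤ) = 1 := by
      rw [Int.gcd_natCast_natCast]; exact hmc
    rw [h2]; simp
  obtain ⟨a, ha⟩ : ∃ a : ℤ, a = Int.gcdA m p := ⟨_, rfl⟩
  obtain ⟨b, hb⟩ : ∃ b : ℤ, b = Int.gcdB m p := ⟨_, rfl⟩
  rw [← ha, ← hb] at hbez
  obtain ⟨z, hz⟩ : ∃ z, z = y ^ ((m : ℤ) * a) := ⟨_, rfl⟩
  have hzp : z ^ p = 1 := by
    have h1 : (y ^ p) ^ m = 1 := by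
      have h2 := Subgroup.orderOf_dvd_natCard _ hyp
      rw [← hm] at h2
      exact orderOf_dvd_iff_pow_eq_one.mp h2
    rw [hz, ← zpow_natCast, ← zpow_mul]
    have e : (m : ℤ) * a * p = (p : ℤ) * m * a := by ring
    rw [e, zpow_mul, zpow_mul, zpow_natCast y p, zpow_natCast (y ^ p) m, h1, one_zpow]
  have hπz : QuotientGroup.mk' (pPrimeCore p G) z = QuotientGroup.mk' (pPrimeCore p G) y := by
    have e : (m : ℤ) * a = 1 - p * b := by linarith
    rw [hz, map_zpow, e, zpow_sub, zpow_one, zpow_mul, zpow_natCast, hxp, one_zpow, inv_one,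
      mul_one]
  have hzC : z ∈ Subgroup.centralizer (E : Set G) := by
    rw [hz]; exact Subgroup.zpow_mem _ hrd _
  have hB := isElementaryAbelian_sup_zpowers hE
    (fun e he => Subgroup.mem_centralizer_iff.mp hzC e he) hzp
  have hBE := hEmax _ hB le_sup_left
  have hzE : z ∈ E := by
    rw [← hBE]; exact Subgroup.mem_sup_right (Subgroup.mem_zpowers z)
  rw [← hπz]
  exact Subgroup.mem_map_of_mem _ hzE

end Cfsg.Agent.Lib.Helper2.Comp
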