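import Mathlib

/-!
# Frobenius-type actions and splitting

Let `F0` be a finite subgroup of `D` normalised by `y`, such that the powers `y ^ i`, `0 < i < c`,
act fixed-point-freely on `F0`.  If `D` acts on a `p`-group `S` (with `p ∤ |F0|`) such that
`v · y(v) · y²(v) ⋯ y^{c-1}(v) = 1` for all `v`, then `F0` acts trivially on `S`.
-/

set_option autoImplicit false

namespace Cfsg.Agent.Lib.Helper2.FrobSplit

universe u v

theorem conj_pow_mem {D : Type*} [Group D] (F0 : Subgroup D) (y : D)
    (hnorm : ∀ f ∈ F0, y * f * y⁻¹ ∈ F0) :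
    ∀ (i : ℕ) (f : D), f ∈ F0 → y ^ i * f * (y ^ i)⁻¹ ∈ F0 := by
  intro i
  induction i with
  | zero => intro f hf; simpa using hf
  | succ j ih =>
    intro f hf
    have h1 := hnorm _ (ih f hf)
    have h2 : y ^ (j + 1) * f * (y ^ (j + 1))⁻¹ = y * (y ^ j * f * (y ^ j)⁻¹) * y⁻¹ := by
      rw [pow_succ']; group
    rw [h2]; exact h1

theorem prod_range_eq_list {M : Type*} [CommMonoid M] (g : ℕ → M) (c : ℕ) :
    ∏ i ∈ Finset.range c, g i = ((List.range c).map g).prod := by
  induction c with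
  | zero => simp
  | succ k ih =>
    rw [Finset.prod_range_succ, ih, List.range_succ, List.map_append, List.prod_append]
    simp

theorem split_abelian {V : Type*} [CommGroup V] [Finite V] {D : Type*} [Group D]
    (ρ : D →* MulAut V) (F0 : Subgroup D) [Finite F0] (y : D) (c : ℕ) (hc : 0 < c)
    (hnorm : ∀ f ∈ F0, y * f * y⁻¹ ∈ F0)
    (hfpf : ∀ i, 0 < i → i < c → ∀ f ∈ F0, y ^ i * f * (y ^ i)⁻¹ = f → f = 1)
    (hcop : (Nat.card F0).Coprime (Nat.card V))
    (hsplit : ∀ v : V, ∏ i ∈ Finset.range c, ρ (y ^ i) v = 1) :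
    ∀ f ∈ F0, ∀ v : V, ρ f v = v := by
  classical
  haveI : Fintype F0 := Fintype.ofFinite F0
  obtain ⟨c', rfl⟩ : ∃ c', c = c' + 1 := ⟨c - 1, by omega⟩
  have hnormi := conj_pow_mem F0 y hnorm
  have hsplit' : ∀ w : V, ∏ i ∈ Finset.range c', ρ (y ^ (i + 1)) w = w⁻¹ := by
    intro w
    have h1 := hsplit w
    rw [Finset.prod_range_succ'] at h1
    have h2 : ρ (y ^ 0) w = w := by rw [pow_zero, map_one]; rfl
    rw [h2] at h1
    exact eq_inv_of_mul_eq_one_left h1
  have key : ∀ v : V, ∏ f : F0, ρ (f : D) v = v ^ Fintype.card F0 := by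
    intro v
    have hA1 : ∏ i ∈ Finset.range (c' + 1), ∏ f : F0, ρ ((f : D) * y ^ i) v = 1 := by
      rw [Finset.prod_comm]
      apply Finset.prod_eq_one
      intro f _
      have h1 : ∀ i, ρ ((f : D) * y ^ i) v = ρ (f : D) (ρ (y ^ i) v) := fun i => by
        rw [map_mul]; rfl
      simp_rw [h1]
      rw [← map_prod, hsplit v, map_one]
    rw [Finset.prod_range_succ'] at hA1
    have h0 : ∏ f : F0, ρ ((f : D) * y ^ 0) v = ∏ f : F0, ρ (f : D) v := by
      simp
    rw [h0] at hA1
    have hrest : ∏ i ∈ Finset.range c', ∏ f : F0, ρ ((f : D) * y ^ (i + 1)) v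
        = (v⁻¹) ^ Fintype.card F0 := by
      have hbij : ∀ i ∈ Finset.range c', ∏ f : F0, ρ ((f : D) * y ^ (i + 1)) v
          = ∏ h : F0, ρ ((h : D) * y ^ (i + 1) * (h : D)⁻¹) v := by
        intro i hi
        rw [Finset.mem_range] at hi
        let σ : F0 → F0 := fun h => ⟨(h : D) * (y ^ (i + 1) * (h : D)⁻¹ * (y ^ (i + 1))⁻¹),
          F0.mul_mem h.2 (hnormi (i + 1) _ (F0.inv_mem h.2))⟩
        have hσ : Function.Bijective σ := by
          rw [← Finite.injective_iff_bijective]
          intro a b hab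
          have h1 : (a : D) * (y ^ (i + 1) * (a : D)⁻¹ * (y ^ (i + 1))⁻¹)
              = (b : D) * (y ^ (i + 1) * (b : D)⁻¹ * (y ^ (i + 1))⁻¹) := congrArg Subtype.val hab
          have e1 : (a : D) * y ^ (i + 1) * (a : D)⁻¹ = (b : D) * y ^ (i + 1) * (b : D)⁻¹ := by
            have h2 := congrArg (· * y ^ (i + 1)) h1
            simpa [mul_assoc] using h2
          have e2 : y ^ (i + 1) * ((b : D)⁻¹ * (a : D)) * (y ^ (i + 1))⁻¹ = (b : D)⁻¹ * (a : D) := by
            have h3 : (b : D)⁻¹ * (a : D) * y ^ (i + 1) = y ^ (i + 1) * ((b : D)⁻¹ * (a : D)) := by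
              calc (b : D)⁻¹ * (a : D) * y ^ (i + 1)
                  = (b : D)⁻¹ * ((a : D) * y ^ (i + 1) * (a : D)⁻¹) * (a : D) := by group
                _ = (b : D)⁻¹ * ((b : D) * y ^ (i + 1) * (b : D)⁻¹) * (a : D) := by rw [e1]
                _ = y ^ (i + 1) * ((b : D)⁻¹ * (a : D)) := by group
            rw [← h3]; group
          have h4 := hfpf (i + 1) (by omega) (by omega) _ (F0.mul_mem (F0.inv_mem b.2) a.2) e2
          exact Subtype.ext (inv_mul_eq_one.mp h4).symm
        refine (Fintype.prod_bijective σ hσ _ _ (fun h => ?_)).symm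
        have h5 : ((σ h : F0) : D) * y ^ (i + 1) = (h : D) * y ^ (i + 1) * (h : D)⁻¹ := by
          show (h : D) * (y ^ (i + 1) * (h : D)⁻¹ * (y ^ (i + 1))⁻¹) * y ^ (i + 1) = _
          group
        rw [h5]
      have hterm : ∀ h : F0, ∏ i ∈ Finset.range c', ρ ((h : D) * y ^ (i + 1) * (h : D)⁻¹) v
          = v⁻¹ := by
        intro h
        have h1 : ∀ i, ρ ((h : D) * y ^ (i + 1) * (h : D)⁻¹) v
            = ρ (h : D) (ρ (y ^ (i + 1)) (ρ (h : D)⁻¹ v)) := fun i => by
          rw [map_mul, map_mul]; rfl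
        simp_rw [h1]
        rw [← map_prod, hsplit' (ρ (h : D)⁻¹ v), map_inv]
        congr 1
        have h2 : ρ (h : D) (ρ (h : D)⁻¹ v) = (ρ (h : D) * ρ (h : D)⁻¹) v := rfl
        rw [h2, ← map_mul, mul_inv_cancel, map_one]; rfl
      rw [Finset.prod_congr rfl hbij, Finset.prod_comm,
        Finset.prod_congr rfl (fun h _ => hterm h), Finset.prod_const, Finset.card_univ]
    rw [hrest, inv_pow] at hA1
    exact (inv_mul_eq_one.mp hA1).symm
  intro g hg v
  have hT : ρ g (∏ f : F0, ρ (f : D) v) = ∏ f : F0, ρ (f : D) v := by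
    rw [map_prod]
    have h1 : ∀ f : F0, ρ g (ρ (f : D) v) = ρ (((⟨g, hg⟩ : F0) * f : F0) : D) v := fun f => by
      show _ = ρ (g * (f : D)) v
      rw [map_mul]; rfl
    simp_rw [h1]
    exact Fintype.prod_bijective (fun f : F0 => (⟨g, hg⟩ : F0) * f) (Group.mulLeft_bijective _)
      _ _ (fun _ => rfl)
  rw [key v, map_pow] at hT
  have h2 : (ρ g v * v⁻¹) ^ Fintype.card F0 = 1 := by
    rw [mul_pow, hT, inv_pow, mul_inv_cancel]
  have h3 : orderOf (ρ g v * v⁻¹) ∣ Fintype.card F0 := orderOf_dvd_of_pow_eq_one h2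
  have h4 : orderOf (ρ g v * v⁻¹) ∣ Nat.card V := orderOf_dvd_natCard _
  rw [← Nat.card_eq_fintype_card] at h3
  have h5 : orderOf (ρ g v * v⁻¹) = 1 :=
    Nat.Coprime.eq_one_of_dvd (Nat.Coprime.coprime_dvd_left h3 hcop) h4
  rw [orderOf_eq_one_iff, mul_inv_eq_one] at h5
  exact h5

theorem map_mem_center {S : Type*} [Group S] (φ : MulAut S) {z : S}
    (hz : z ∈ Subgroup.center S) : φ z ∈ Subgroup.center S := by
  rw [Subgroup.mem_center_iff] at hz ⊢
  intro g
  have h1 := hz (φ.symm g)
  have h2 := congrArg φ h1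
  simpa using h2

/-- restriction of an action to the centre -/
def resCenter {S : Type*} [Group S] {D : Type*} [Group D] (ρ : D →* MulAut S) :
    D →* MulAut (Subgroup.center S) where
  toFun d :=
    { toFun := fun z => ⟨ρ d z, map_mem_center (ρ d) z.2⟩
      invFun := fun z => ⟨(ρ d).symm z, map_mem_center (ρ d).symm z.2⟩
      left_inv := fun z => Subtype.ext (by simp)
      right_inv := fun z => Subtype.ext (by simp)
      map_mul' := fun a b => Subtype.ext (by simp) }
  map_one' := by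
    ext z
    simp
  map_mul' := fun a b => by
    ext z
    simp

theorem resCenter_coe {S : Type*} [Group S] {D : Type*} [Group D] (ρ : D →* MulAut S) (d : D)
    (z : Subgroup.center S) : ((resCenter ρ d z : Subgroup.center S) : S) = ρ d z := rfl

theorem map_center_eq {S : Type*} [Group S] (φ : MulAut S) :
    (Subgroup.center S).map φ.toMonoidHom = Subgroup.center S := by
  apply le_antisymm
  · rintro _ ⟨z, hz, rfl⟩
    exact map_mem_center φ hz
  · intro z hz
    exact ⟨φ.symm z, map_mem_center φ.symm hz, by simp⟩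

/-- induced action on the quotient by the centre -/
def quoCenter {S : Type*} [Group S] {D : Type*} [Group D] (ρ : D →* MulAut S) :
    D →* MulAut (S ⧸ Subgroup.center S) where
  toFun d := QuotientGroup.congr (Subgroup.center S) (Subgroup.center S) (ρ d) (map_center_eq (ρ d))
  map_one' := by
    ext x
    obtain ⟨x, rfl⟩ := QuotientGroup.mk_surjective x
    simp
  map_mul' := fun a b => by
    ext x
    obtain ⟨x, rfl⟩ := QuotientGroup.mk_surjective x
    show (QuotientGroup.mk (ρ (a * b) x) : S ⧸ Subgroup.center S) = QuotientGroup.mk (ρ a (ρ b x))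
    rw [map_mul]; rfl

theorem quoCenter_mk {S : Type*} [Group S] {D : Type*} [Group D] (ρ : D →* MulAut S) (d : D)
    (x : S) : quoCenter ρ d (QuotientGroup.mk x) = QuotientGroup.mk (ρ d x) := rfl

theorem split_pgroup {D : Type v} [Group D] (F0 : Subgroup D) [Finite F0] (y : D) (c : ℕ)
    (hc : 0 < c) (hnorm : ∀ f ∈ F0, y * f * y⁻¹ ∈ F0)
    (hfpf : ∀ i, 0 < i → i < c → ∀ f ∈ F0, y ^ i * f * (y ^ i)⁻¹ = f → f = 1)
    (s : ℕ) [Fact s.Prime] (hcop : (Nat.card F0).Coprime s) :
    ∀ (n : ℕ) (S : Type u) [Group S] [Finite S], Nat.card S = n → IsPGroup s S →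
      ∀ (ρ : D →* MulAut S), (∀ v : S, ((List.range c).map (fun i => ρ (y ^ i) v)).prod = 1) →
      ∀ f ∈ F0, ∀ v : S, ρ f v = v := by
  intro n
  induction n using Nat.strong_induction_on with
  | _ n ih =>
  intro S _ _ hn hS ρ hsplit f hf v
  by_cases htriv : Subsingleton S
  · exact Subsingleton.elim _ _
  rw [not_subsingleton_iff_nontrivial] at htriv
  haveI : Nontrivial (Subgroup.center S) := hS.center_nontrivial
  have hcopZ : (Nat.card F0).Coprime (Nat.card (Subgroup.center S)) := by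
    obtain ⟨k, hk⟩ := IsPGroup.iff_card.mp (hS.to_subgroup (Subgroup.center S))
    rw [hk]; exact Nat.Coprime.pow_right _ hcop
  letI : CommGroup (Subgroup.center S) :=
    { (inferInstance : Group (Subgroup.center S)) with
      mul_comm := fun a b => Subtype.ext (Subgroup.mem_center_iff.mp a.2 (b : S)).symm }
  have hZ : ∀ f ∈ F0, ∀ z : Subgroup.center S, resCenter ρ f z = z := by
    apply split_abelian (resCenter ρ) F0 y c hc hnorm hfpf hcopZ
    intro z
    apply Subtype.ext
    rw [prod_range_eq_list]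
    have h1 : (((List.range c).map (fun i => resCenter ρ (y ^ i) z)).prod : Subgroup.center S)
        = (Subgroup.center S).subtype (((List.range c).map (fun i => resCenter ρ (y ^ i) z)).prod) :=
      rfl
    rw [h1, map_list_prod, List.map_map]
    exact hsplit (z : S)
  have hcardQ : Nat.card (S ⧸ Subgroup.center S) < n := by
    have h1 := Subgroup.card_eq_card_quotient_mul_card_subgroup (Subgroup.center S)
    have h2 : 1 < Nat.card (Subgroup.center S) := Finite.one_lt_card
    have h3 : 0 < Nat.card (S ⧸ Subgroup.center S) := Nat.card_pos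
    rw [← hn, h1]
    nlinarith
  have hsplitQ : ∀ w : S ⧸ Subgroup.center S,
      ((List.range c).map (fun i => quoCenter ρ (y ^ i) w)).prod = 1 := by
    intro w
    obtain ⟨x, rfl⟩ := QuotientGroup.mk_surjective w
    have h1 : (fun i => quoCenter ρ (y ^ i) (QuotientGroup.mk x))
        = (QuotientGroup.mk' (Subgroup.center S)) ∘ (fun i => ρ (y ^ i) x) := by
      funext i; rfl
    rw [h1, ← List.map_map, ← map_list_prod, hsplit x, map_one]
  have hQ := ih _ hcardQ (S ⧸ Subgroup.center S) rfl (hS.to_quotient _) (quoCenter ρ) hsplitQ f hf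
    (QuotientGroup.mk v)
  rw [quoCenter_mk] at hQ
  have hz : v⁻¹ * ρ f v ∈ Subgroup.center S := QuotientGroup.eq.mp hQ.symm
  obtain ⟨z, hzdef⟩ : ∃ z : S, z = v⁻¹ * ρ f v := ⟨_, rfl⟩
  rw [← hzdef] at hz
  have hfv : ρ f v = v * z := by rw [hzdef]; group
  have hfz : ρ f z = z := by
    have h1 := hZ f hf ⟨z, hz⟩
    exact congrArg Subtype.val h1
  have hpow : ∀ k : ℕ, ρ (f ^ k) v = v * z ^ k := by
    intro k
    induction k with
    | zero => simp
    | succ j ihj =>
      rw [pow_succ', map_mul]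
      show ρ f (ρ (f ^ j) v) = _
      rw [ihj, map_mul, hfv, map_pow, hfz, pow_succ']
      group
  have h1 : f ^ Nat.card F0 = 1 := by
    have h2 := pow_card_eq_one' (G := F0) (x := ⟨f, hf⟩)
    exact congrArg Subtype.val h2
  have h2 := hpow (Nat.card F0)
  rw [h1, map_one] at h2
  have h3 : z ^ Nat.card F0 = 1 := by
    have h4 : v = v * z ^ Nat.card F0 := h2
    exact (mul_eq_left.mp h4.symm)
  have h4 : orderOf z ∣ Nat.card F0 := orderOf_dvd_of_pow_eq_one h3
  obtain ⟨j, hj⟩ := (IsPGroup.iff_orderOf.mp hS) z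
  have h5 : orderOf z = 1 := by
    apply Nat.Coprime.eq_one_of_dvd _ h4
    rw [hj]; exact Nat.Coprime.pow_left _ hcop.symm
  rw [orderOf_eq_one_iff] at h5
  rw [hfv, h5, mul_one]

/-- `(v * k) ^ c = (∏_{i<c} k^i v k^{-i}) * k ^ c` -/
theorem mul_pow_eq_prod {G : Type*} [Group G] (v k : G) (c : ℕ) :
    (v * k) ^ c = ((List.range c).map (fun i => k ^ i * v * (k ^ i)⁻¹)).prod * k ^ c := by
  induction c with
  | zero => simp
  | succ j ih =>
    rw [pow_succ, ih, List.range_succ, List.map_append, List.prod_append]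
    simp only [List.map_cons, List.map_nil, List.prod_cons, List.prod_nil, mul_one]
    rw [pow_succ]
    group

end Cfsg.Agent.Lib.Helper2.FrobSplit
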