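import Mathlib
import Cfsg.Prelude.Def_Local
import Cfsg.Agent.Lib.Helper2.Comp19
import Cfsg.Agent.Lib.Lead.Coprime
import Cfsg.Agent.Lib.Lead.Basic

set_option autoImplicit false
set_option linter.unusedSectionVars false
set_option linter.style.haveILetI false

/-! fusion in groups `G = K U` with `K` normal: conjugation of `K'`-subgroups of `U` -/

namespace Cfsg.Agent.Lib.Helper2.Fus

open Cfsg Cfsg.Agent.Lib.Helper2.Comp
open scoped commutatorElement Pointwise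

variable {G : Type*} [Group G]

/-- a subgroup containing a Sylow `p`-subgroup of `X` for every prime `p` contains `X` -/
theorem le_of_forall_sylow [Finite G] {X M : Subgroup G}
    (h : ∀ (p : ℕ) [Fact p.Prime] (T : Sylow p X), sylImg p T ≤ M) : X ≤ M := by
  rw [← Subgroup.relIndex_eq_one]
  by_contra hne
  obtain ⟨p, hp, hdvd⟩ := Nat.exists_prime_and_dvd hne
  haveI : Fact p.Prime := ⟨hp⟩
  obtain ⟨T⟩ : Nonempty (Sylow p X) := inferInstance
  exact not_dvd_relIndex_sylImg p T (dvd_trans hdvd (Subgroup.relIndex_dvd_of_le_left X (h p T)))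

/-- `|G : U|` divides `|K|` when `G = K U` -/
theorem index_dvd_card_of_sup_eq_top [Finite G] (K U : Subgroup G) [K.Normal] (hKU : K ⊔ U = ⊤) :
    U.index ∣ Nat.card K := by
  have h1 : Nat.card U * U.index = Nat.card G := Subgroup.card_mul_index U
  have h2 : Nat.card K * K.index = Nat.card G := Subgroup.card_mul_index K
  have h3 : K.index = K.relIndex U := by
    rw [← Subgroup.relIndex_sup_left U K, hKU, Subgroup.relIndex_top_right]
  obtain ⟨c, hc⟩ := Subgroup.relIndex_dvd_card K U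
  have hpos : 0 < K.relIndex U := by
    rw [← h3]; exact Nat.pos_of_ne_zero Subgroup.index_ne_zero_of_finite
  refine ⟨c, ?_⟩
  rw [h3] at h2
  rw [hc] at h1
  have h4 : K.relIndex U * (U.index * c) = K.relIndex U * Nat.card K := by
    rw [← h2] at h1; linarith
  have := Nat.eq_of_mul_eq_mul_left hpos h4
  linarith

/-- if `G = K U`, `K` normal, `H ≤ U` of order prime to `|K|` and `H^g ≤ U`, then `g ∈ U C_K(H)` -/
theorem exists_mul_of_conj_le [Finite G] (K U H : Subgroup G) [hKn : K.Normal] (hKU : K ⊔ U = ⊤)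
    (hH : H ≤ U) (hcop : (Nat.card H).Coprime (Nat.card K))
    (hsolv : Group.IsSolvable ↥(K ⊓ U) ∨ Group.IsSolvable H) (g : G)
    (hg : H.map (MulAut.conj g).toMonoidHom ≤ U) :
    ∃ u ∈ U, ∃ c ∈ K ⊓ Subgroup.centralizer (H : Set G), g = u * c := by
  have hUK : U ≤ Subgroup.normalizer (K : Set G) := by
    rw [Subgroup.normalizer_eq_top_iff.mpr hKn]; exact le_top
  have hg' : g⁻¹ ∈ K ⊔ U := by rw [hKU]; exact Subgroup.mem_top _
  obtain ⟨k', hk', u', hu', e⟩ := Cfsg.Agent.Lib.Lead.mem_sup_of_le_normalizer hUK hg'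
  obtain ⟨u₁, hu₁⟩ : ∃ u₁, u₁ = u'⁻¹ := ⟨_, rfl⟩
  obtain ⟨k, hk⟩ : ∃ k, k = k'⁻¹ := ⟨_, rfl⟩
  have hu₁U : u₁ ∈ U := hu₁ ▸ U.inv_mem hu'
  have hkK : k ∈ K := hk ▸ K.inv_mem hk'
  have hgk : g = u₁ * k := by
    rw [hu₁, hk, ← mul_inv_rev, ← e, inv_inv]
  have hkU : ∀ h ∈ H, k * h * k⁻¹ ∈ U := by
    intro h hh
    have h1 : g * h * g⁻¹ ∈ U := hg ⟨h, hh, rfl⟩
    have e1 : k * h * k⁻¹ = u₁⁻¹ * (g * h * g⁻¹) * u₁ := by rw [hgk]; group
    rw [e1]; exact U.mul_mem (U.mul_mem (U.inv_mem hu₁U) h1) hu₁U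
  obtain ⟨M, hM⟩ : ∃ M, M = K ⊓ U := ⟨_, rfl⟩
  have hHM : H ≤ Subgroup.normalizer (M : Set G) := by
    rw [hM]; exact le_normalizer_inf (hH.trans hUK) (hH.trans Subgroup.le_normalizer)
  have hle : MulAut.conj k • H ≤ M ⊔ H := by
    intro y hy
    rw [Cfsg.Agent.Lib.Lead.mem_conj_smul] at hy
    have h1 := hkU _ hy
    have e1 : k * (k⁻¹ * y * k) * k⁻¹ = y := by group
    rw [e1] at h1
    have h2 : y * (k⁻¹ * y * k)⁻¹ ∈ M := by
      rw [hM]; refine ⟨?_, U.mul_mem h1 (U.inv_mem (hH hy))⟩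
      have e2 : y * (k⁻¹ * y * k)⁻¹ = (y * k⁻¹ * y⁻¹) * k := by group
      rw [e2]; exact K.mul_mem (hKn.conj_mem _ (K.inv_mem hkK) y) hkK
    have e3 : y = (y * (k⁻¹ * y * k)⁻¹) * (k⁻¹ * y * k) := by group
    rw [e3]; exact Subgroup.mul_mem _ (Subgroup.mem_sup_left h2) (Subgroup.mem_sup_right hy)
  have hcM : (Nat.card M).Coprime (Nat.card H) := by
    rw [hM]; exact (Nat.Coprime.coprime_dvd_right (Subgroup.card_dvd_of_le inf_le_left) hcop).symm
  have hsolv' : Group.IsSolvable M ∨ Group.IsSolvable H := by rw [hM]; exact hsolv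
  obtain ⟨w, hwM, hw⟩ := Cfsg.Agent.Lib.Lead.sz_conj M H (MulAut.conj k • H) hHM hle
    (Cfsg.Agent.Lib.Lead.card_conj_smul k H) hcM hsolv'
  have hwK : w ∈ K := (hM ▸ hwM : w ∈ K ⊓ U).1
  have hwU : w ∈ U := (hM ▸ hwM : w ∈ K ⊓ U).2
  have hc : MulAut.conj (w⁻¹ * k) • H = H := by
    rw [map_mul, mul_smul, ← hw, ← mul_smul, ← map_mul, inv_mul_cancel, map_one, one_smul]
  have hdisj : K ⊓ H = ⊥ := (Subgroup.disjoint_of_coprime_natCard hcop.symm).eq_bot
  have hcc := Cfsg.Agent.Lib.Lead.mem_centralizer_of_conj_smul_eq (A := H) (K := K) (hH.trans hUK)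
    hdisj (K.mul_mem (K.inv_mem hwK) hkK) hc
  refine ⟨u₁ * w, U.mul_mem hu₁U hwU, w⁻¹ * k, ⟨K.mul_mem (K.inv_mem hwK) hkK, hcc⟩, ?_⟩
  rw [hgk]; group

/-- `N_G(H) = C_K(H) N_U(H)` -/
theorem normalizer_eq_sup [Finite G] (K U H : Subgroup G) [hKn : K.Normal] (hKU : K ⊔ U = ⊤)
    (hH : H ≤ U) (hcop : (Nat.card H).Coprime (Nat.card K))
    (hsolv : Group.IsSolvable ↥(K ⊓ U) ∨ Group.IsSolvable H) :
    Subgroup.normalizer (H : Set G) =
      (K ⊓ Subgroup.centralizer (H : Set G)) ⊔ (U ⊓ Subgroup.normalizer (H : Set G)) := by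
  apply le_antisymm
  · intro g hg
    have h1 : H.map (MulAut.conj g).toMonoidHom ≤ U := by
      rintro _ ⟨h, hh, rfl⟩
      exact hH ((Subgroup.mem_normalizer_iff.mp hg h).mp hh)
    obtain ⟨u, hu, c, hc, e⟩ := exists_mul_of_conj_le K U H hKU hH hcop hsolv g h1
    have hcN : c ∈ Subgroup.normalizer (H : Set G) := Subgroup.centralizer_le_normalizer _ hc.2
    have huN : u ∈ Subgroup.normalizer (H : Set G) := by
      have e' : u = g * c⁻¹ := by rw [e]; group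
      rw [e']; exact Subgroup.mul_mem _ hg (Subgroup.inv_mem _ hcN)
    rw [e]
    exact Subgroup.mul_mem _ (Subgroup.mem_sup_right ⟨hu, huN⟩) (Subgroup.mem_sup_left hc)
  · exact sup_le (inf_le_right.trans (Subgroup.centralizer_le_normalizer _)) inf_le_right

/-- `H ∩ G' ≤ U'` -/
theorem inf_commutator_le [Finite G] (K U H : Subgroup G) [hKn : K.Normal] (hKU : K ⊔ U = ⊤)
    (hH : H ≤ U) (hcop : (Nat.card H).Coprime (Nat.card K)) :
    H ⊓ commutator G ≤ ⁅U, U⁆ := by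
  apply le_of_forall_sylow
  intro p _ T
  have hpp : p.Prime := Fact.out
  obtain ⟨Q, hQ⟩ : ∃ Q, Q = sylImg p T := ⟨_, rfl⟩
  rw [← hQ]
  have hQX : Q ≤ H ⊓ commutator G := hQ ▸ sylImg_le p T
  have hQp : IsPGroup p Q := hQ ▸ sylImg_isPGroup p T
  by_cases hpK : p ∣ Nat.card K
  · have h1 : ¬ p ∣ Nat.card H := fun hd => by
      have h0 := Nat.dvd_gcd hd hpK
      rw [Nat.Coprime.gcd_eq_one hcop] at h0
      exact hpp.one_lt.ne' (Nat.dvd_one.mp h0)
    have h2 : Q = ⊥ := by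
      obtain ⟨n, hn⟩ := IsPGroup.iff_card.mp hQp
      have h3 : Nat.card Q ∣ Nat.card H := Subgroup.card_dvd_of_le (hQX.trans inf_le_left)
      rcases Nat.eq_zero_or_pos n with h0 | h0
      · rw [h0, pow_zero] at hn; exact Subgroup.card_eq_one.mp hn
      · exfalso; apply h1; rw [hn] at h3; exact dvd_trans (dvd_pow_self p h0.ne') h3
    rw [h2]; exact bot_le
  · have hQU : Q ≤ U := hQX.trans (inf_le_left.trans hH)
    have hQUp : IsPGroup p (Q.subgroupOf U) := hQp.comap_subtype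
    obtain ⟨SU, hSU⟩ := hQUp.exists_le_sylow
    have hQP : Q ≤ sylImg p SU := by
      intro x hx
      exact ⟨⟨x, hQU hx⟩, hSU (Subgroup.mem_subgroupOf.mpr hx), rfl⟩
    have hidx : ¬ p ∣ (sylImg p SU).index := by
      rw [← Subgroup.relIndex_mul_index (sylImg_le p SU)]
      intro hd
      rcases (Nat.Prime.dvd_mul hpp).mp hd with h | h
      · exact not_dvd_relIndex_sylImg p SU h
      · exact hpK (dvd_trans h (index_dvd_card_of_sup_eq_top K U hKU))
    obtain ⟨P, hP⟩ : ∃ P : Sylow p G, (P : Subgroup G) = sylImg p SU :=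
      ⟨(sylImg_isPGroup p SU).toSylow hidx, IsPGroup.toSylow_coe _ _⟩
    have hPU : (P : Subgroup G) ≤ U := hP ▸ sylImg_le p SU
    have h4 : Q ≤ commutator G ⊓ (P : Subgroup G) := le_inf (hQX.trans inf_le_right) (hP ▸ hQP)
    rw [Subgroup.commutator_inf_eq_focalSubgroup P] at h4
    refine h4.trans ?_
    rw [Subgroup.focalSubgroup_def, Subgroup.closure_le]
    rintro g ⟨hgP, x, hxP, u, rfl⟩
    have hxU : Subgroup.zpowers x ≤ U := Subgroup.zpowers_le.mpr (hPU hxP)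
    have hcx : (Nat.card (Subgroup.zpowers x)).Coprime (Nat.card K) := by
      have hzp : IsPGroup p (Subgroup.zpowers x) := P.2.to_le (Subgroup.zpowers_le.mpr hxP)
      obtain ⟨n, hn⟩ := IsPGroup.iff_card.mp hzp
      rw [hn]; exact Nat.Coprime.pow_left n ((Nat.Prime.coprime_iff_not_dvd hpp).mpr hpK)
    have hconj : (Subgroup.zpowers x).map (MulAut.conj u).toMonoidHom ≤ U := by
      rw [MonoidHom.map_zpowers, Subgroup.zpowers_le]
      have h5 : u * x⁻¹ * u⁻¹ ∈ (P : Subgroup G) := by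
        have e : u * x⁻¹ * u⁻¹ = x⁻¹ * ⁅x, u⁆ := by rw [commutatorElement_def]; group
        rw [e]; exact Subgroup.mul_mem _ (Subgroup.inv_mem _ hxP) hgP
      have e2 : (MulAut.conj u).toMonoidHom x = (u * x⁻¹ * u⁻¹)⁻¹ := by
        show u * x * u⁻¹ = _
        group
      rw [e2]; exact U.inv_mem (hPU h5)
    obtain ⟨u₁, hu₁, c, hc, e⟩ := exists_mul_of_conj_le K U (Subgroup.zpowers x) hKU hxU hcx
      (Or.inr inferInstance) u hconj
    have hcx' : x * c = c * x :=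
      Subgroup.mem_centralizer_iff.mp hc.2 x (Subgroup.mem_zpowers x)
    have e3 : ⁅x, u⁆ = ⁅x, u₁⁆ := by
      rw [commutatorElement_def, commutatorElement_def, e]
      have e4 : c * x⁻¹ * c⁻¹ = x⁻¹ := by
        have h6 : x⁻¹ * (x * c) * x⁻¹ * c⁻¹ = x⁻¹ * (c * x) * x⁻¹ * c⁻¹ := by rw [hcx']
        have l : x⁻¹ * (x * c) * x⁻¹ * c⁻¹ = c * x⁻¹ * c⁻¹ := by group
        have r : x⁻¹ * (c * x) * x⁻¹ * c⁻¹ = x⁻¹ := by group
        rw [l, r] at h6; exact h6
      have e5 : x * (u₁ * c) * x⁻¹ * (u₁ * c)⁻¹ = x * u₁ * (c * x⁻¹ * c⁻¹) * u₁⁻¹ := by group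
      rw [e5, e4]
    rw [SetLike.mem_coe, e3]
    exact Subgroup.commutator_mem_commutator (hPU hxP) hu₁

end Cfsg.Agent.Lib.Helper2.Fus
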