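import Mathlib
import Cfsg.Prelude.Def_Local
import Cfsg.Agent.Lib.Helper2.PLen
import Cfsg.Agent.Lib.Helper3.HallHigman
import Cfsg.Agent.Lib.Helper3.PSolv

set_option autoImplicit false
set_option linter.unusedSectionVars false
set_option linter.style.haveILetI false

/-! the upper `p`-series: unfolding, and the `p`-factors of a `p`-solvable group -/

namespace Cfsg.Agent.Lib.Helper2.Comp

open Cfsg

variable {G : Type*} [Group G]

theorem upperPSeries_succ_odd (p : ℕ) (n : ℕ) (hn : ¬ Even n) :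
    (upperPSeries p G (n + 1)).1 =
      (pCore p (G ⧸ (upperPSeries p G n).1)).comap (QuotientGroup.mk' _) := by
  simp [upperPSeries, hn]

theorem upperPSeries_succ_even (p : ℕ) (n : ℕ) (hn : Even n) :
    (upperPSeries p G (n + 1)).1 =
      (pPrimeCore p (G ⧸ (upperPSeries p G n).1)).comap (QuotientGroup.mk' _) := by
  simp [upperPSeries, hn]

/-- the quotient by the preimage of `O_{p'}(G/N)` has trivial `O_{p'}` -/
theorem pPrimeCore_quotient_comap [Finite G] (p : ℕ) [Fact p.Prime] (N : Subgroup G) [N.Normal]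
    (M : Subgroup G) [M.Normal]
    (hM : M = (pPrimeCore p (G ⧸ N)).comap (QuotientGroup.mk' N)) : pPrimeCore p (G ⧸ M) = ⊥ := by
  obtain ⟨Y, hY⟩ : ∃ Y, Y = (pPrimeCore p (G ⧸ M)).comap (QuotientGroup.mk' M) := ⟨_, rfl⟩
  have hYn : Y.Normal := hY ▸ (Cfsg.Agent.Lib.Lead.pPrimeCore_normal p _).comap _
  have hMY : M ≤ Y := by
    rw [hY]; intro x hx
    rw [Subgroup.mem_comap]
    have h0 : QuotientGroup.mk' M x = 1 := (QuotientGroup.eq_one_iff x).mpr hx
    rw [h0]; exact one_mem _
  have hmapM : M.map (QuotientGroup.mk' N) = pPrimeCore p (G ⧸ N) := by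
    rw [hM]; exact Subgroup.map_comap_eq_self_of_surjective (QuotientGroup.mk'_surjective _) _
  have hmapY : Y.map (QuotientGroup.mk' M) = pPrimeCore p (G ⧸ M) := by
    rw [hY]; exact Subgroup.map_comap_eq_self_of_surjective (QuotientGroup.mk'_surjective _) _
  have h1 : (pPrimeCore p (G ⧸ N)).relIndex (Y.map (QuotientGroup.mk' N)) =
      Nat.card (pPrimeCore p (G ⧸ M)) := by
    rw [← Subgroup.relIndex_comap, ← hM]
    have e3 : M = (⊥ : Subgroup (G ⧸ M)).comap (QuotientGroup.mk' M) := by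
      rw [MonoidHom.comap_bot, QuotientGroup.ker_mk']
    conv_lhs => rw [e3]
    rw [Subgroup.relIndex_comap, hmapY, Subgroup.relIndex_bot_left]
  have h2 : (Nat.card (Y.map (QuotientGroup.mk' N))).Coprime p := by
    have hle : pPrimeCore p (G ⧸ N) ≤ Y.map (QuotientGroup.mk' N) := by
      rw [← hmapM]; exact Subgroup.map_mono hMY
    rw [← Cfsg.Agent.Lib.Lead.relIndex_mul_card_of_le hle, h1]
    exact Nat.Coprime.mul_left (Cfsg.Agent.Lib.Lead.pPrimeCore_coprime p)
      (Cfsg.Agent.Lib.Lead.pPrimeCore_coprime p)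
  have h4 : Y.map (QuotientGroup.mk' N) ≤ pPrimeCore p (G ⧸ N) :=
    le_pPrimeCore (hYn.map _ (QuotientGroup.mk'_surjective N)) h2
  have h5 : Y ≤ M := by rw [hM, ← Subgroup.map_le_iff_le_comap]; exact h4
  rw [← hmapY, eq_bot_iff]
  rintro _ ⟨y, hy, rfl⟩
  rw [Subgroup.mem_bot]; exact (QuotientGroup.eq_one_iff y).mpr (h5 hy)

/-- Hall–Higman 1.2.3 along the upper `p`-series -/
theorem centralizer_upperPSeries_le [Finite G] {p : ℕ} [Fact p.Prime] (hsol : IsPSolvable p G)
    (k : ℕ) :
    Subgroup.centralizer ((((upperPSeries p G (2 * k + 2)).1.map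
      (QuotientGroup.mk' (upperPSeries p G (2 * k + 1)).1)) :
        Subgroup (G ⧸ (upperPSeries p G (2 * k + 1)).1)) :
          Set (G ⧸ (upperPSeries p G (2 * k + 1)).1)) ≤
      (upperPSeries p G (2 * k + 2)).1.map (QuotientGroup.mk' (upperPSeries p G (2 * k + 1)).1) := by
  have hodd : ¬ Even (2 * k + 1) := by rw [Nat.even_iff]; omega
  have heven : Even (2 * k) := even_two_mul k
  have hU : (upperPSeries p G (2 * k + 2)).1 =
      (pCore p (G ⧸ (upperPSeries p G (2 * k + 1)).1)).comap (QuotientGroup.mk' _) :=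
    upperPSeries_succ_odd (G := G) p (2 * k + 1) hodd
  have hM := upperPSeries_succ_even (G := G) p (2 * k) heven
  have hred := pPrimeCore_quotient_comap p (upperPSeries p G (2 * k)).1
    (upperPSeries p G (2 * k + 1)).1 hM
  have hsolq := Cfsg.Agent.Lib.Helper3.isPSolvable_quotient p (upperPSeries p G (2 * k + 1)).1 hsol
  have key := Cfsg.Agent.Lib.Helper3.centralizer_pCore_le_of_isPSolvable hsolq hred
  have e : (upperPSeries p G (2 * k + 2)).1.map
      (QuotientGroup.mk' (upperPSeries p G (2 * k + 1)).1) =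
        pCore p (G ⧸ (upperPSeries p G (2 * k + 1)).1) := by
    rw [hU]; exact Subgroup.map_comap_eq_self_of_surjective (QuotientGroup.mk'_surjective _) _
  rw [e]; exact key

end Cfsg.Agent.Lib.Helper2.Comp
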