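import Mathlib
import Cfsg.Prelude.Def_Local
import Cfsg.Agent.Lib.Helper2.PLen2
import Cfsg.Agent.Lib.Helper4.CharP

set_option autoImplicit false
set_option linter.unusedSectionVars false
set_option linter.style.haveILetI false

/-! the upper `p`-series of `G / O_{p',p}(G)`; `p`-length and the class of a Sylow `p`-subgroup -/

namespace Cfsg.Agent.Lib.Helper2.Comp

open Cfsg

universe u

theorem map_pPrimeCore_le' {G G' : Type*} [Group G] [Group G'] [Finite G] (p : ℕ) (e : G ≃* G') :
    (Cfsg.pPrimeCore p G).map e.toMonoidHom ≤ Cfsg.pPrimeCore p G' := by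
  apply le_pPrimeCore ((Cfsg.Agent.Lib.Lead.pPrimeCore_normal p G).map _ e.surjective)
  exact Nat.Coprime.coprime_dvd_left (Subgroup.card_map_dvd _ _)
    (Cfsg.Agent.Lib.Lead.pPrimeCore_coprime p)

theorem map_pPrimeCore_eq' {G G' : Type*} [Group G] [Group G'] [Finite G] [Finite G'] (p : ℕ)
    (e : G ≃* G') : (Cfsg.pPrimeCore p G).map e.toMonoidHom = Cfsg.pPrimeCore p G' := by
  apply le_antisymm (map_pPrimeCore_le' p e)
  intro x hx
  have h1 : e.symm x ∈ (Cfsg.pPrimeCore p G').map e.symm.toMonoidHom := ⟨x, hx, rfl⟩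
  have h2 := map_pPrimeCore_le' p e.symm h1
  exact ⟨e.symm x, h2, e.apply_symm_apply x⟩

theorem exists_quot_equiv {G H : Type u} [Group G] [Group H]
    (f : G →* H) (hf : Function.Surjective f) (A : Subgroup H) [A.Normal] (B : Subgroup G)
    [B.Normal] (hAB : A.comap f = B) :
    ∃ e : G ⧸ B ≃* H ⧸ A, ∀ g : G, e (QuotientGroup.mk' B g) = QuotientGroup.mk' A (f g) := by
  have hker : B = ((QuotientGroup.mk' A).comp f).ker := by
    rw [← MonoidHom.comap_ker, QuotientGroup.ker_mk', hAB]
  exact ⟨(QuotientGroup.quotientMulEquivOfEq hker).trans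
    (QuotientGroup.quotientKerEquivOfSurjective ((QuotientGroup.mk' A).comp f)
      ((QuotientGroup.mk'_surjective A).comp hf)), fun g => rfl⟩

/-- transport of a characteristic-type subgroup functor along a surjection -/
theorem transport_core {G H : Type u} [Group G] [Group H]
    (X : ∀ (K : Type u) [Group K], Subgroup K)
    (hX : ∀ (K K' : Type u) [Group K] [Group K'] [Finite K] [Finite K'] (e : K ≃* K'),
      (X K).map e.toMonoidHom = X K') [Finite G] [Finite H]
    (f : G →* H) (hf : Function.Surjective f) (A : Subgroup H) [A.Normal] (B : Subgroup G)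
    [B.Normal] (hAB : A.comap f = B) :
    ((X (H ⧸ A)).comap (QuotientGroup.mk' A)).comap f = (X (G ⧸ B)).comap (QuotientGroup.mk' B) := by
  obtain ⟨e, he⟩ := exists_quot_equiv f hf A B hAB
  ext g
  rw [Subgroup.mem_comap, Subgroup.mem_comap, Subgroup.mem_comap, ← hX _ _ e, ← he]
  exact Subgroup.mem_map_iff_mem (f := e.toMonoidHom) e.injective

/-- the upper `p`-series of `G / O_{p',p}(G)` -/
theorem upperPSeries_shift {G : Type u} [Group G] [Finite G] (p : ℕ) [Fact p.Prime]
    (U : Subgroup G) [U.Normal] (hU : U = (upperPSeries p G 2).1) (n : ℕ) :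
    ((upperPSeries p (G ⧸ U) n).1).comap (QuotientGroup.mk' U) = (upperPSeries p G (n + 2)).1 := by
  induction n with
  | zero =>
    show (⊥ : Subgroup (G ⧸ U)).comap (QuotientGroup.mk' U) = (upperPSeries p G 2).1
    rw [MonoidHom.comap_bot, QuotientGroup.ker_mk', hU]
  | succ n ih =>
    by_cases hn : Even n
    · have hn2 : Even (n + 2) := by rw [Nat.even_add]; simp [hn]
      rw [upperPSeries_succ_even (G := G ⧸ U) p n hn]
      show _ = (upperPSeries p G (n + 2 + 1)).1
      rw [upperPSeries_succ_even (G := G) p (n + 2) hn2]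
      exact transport_core (fun K _ => pPrimeCore p K)
        (fun K K' _ _ _ _ e => map_pPrimeCore_eq' p e)
        (QuotientGroup.mk' U) (QuotientGroup.mk'_surjective U) _ _ ih
    · have hn2 : ¬ Even (n + 2) := by rw [Nat.even_add]; simp [hn]
      rw [upperPSeries_succ_odd (G := G ⧸ U) p n hn]
      show _ = (upperPSeries p G (n + 2 + 1)).1
      rw [upperPSeries_succ_odd (G := G) p (n + 2) hn2]
      exact transport_core (fun K _ => pCore p K)
        (fun K K' _ _ _ _ e => Cfsg.Agent.Lib.Helper4.map_pCore_eq p e)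
        (QuotientGroup.mk' U) (QuotientGroup.mk'_surjective U) _ _ ih

/-- the centre of a Sylow `p`-subgroup of a `p`-solvable group lies in `O_{p',p}(G)` -/
theorem center_sylow_le_upperPSeries_two {G : Type u} [Group G] [Finite G] {p : ℕ} [Fact p.Prime]
    (hsol : IsPSolvable p G) (S : Sylow p G) (z : G) (hz : z ∈ (S : Subgroup G))
    (hzc : ∀ s ∈ (S : Subgroup G), s * z = z * s) : z ∈ (upperPSeries p G 2).1 := by
  have hU : (upperPSeries p G 2).1 =
      (pCore p (G ⧸ (upperPSeries p G 1).1)).comap (QuotientGroup.mk' _) :=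
    upperPSeries_succ_odd (G := G) p 1 (by decide)
  have hmap : (upperPSeries p G 2).1.map (QuotientGroup.mk' (upperPSeries p G 1).1)
      = pCore p (G ⧸ (upperPSeries p G 1).1) := by
    rw [hU]; exact Subgroup.map_comap_eq_self_of_surjective (QuotientGroup.mk'_surjective _) _
  have hHH := centralizer_upperPSeries_le hsol 0
  have hHH' : Subgroup.centralizer ((pCore p (G ⧸ (upperPSeries p G 1).1) :
      Subgroup (G ⧸ (upperPSeries p G 1).1)) : Set (G ⧸ (upperPSeries p G 1).1)) ≤
        pCore p (G ⧸ (upperPSeries p G 1).1) := by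
    rw [← hmap]; exact hHH
  rw [hU, Subgroup.mem_comap]
  apply hHH'
  rw [Subgroup.mem_centralizer_iff]
  intro h hh
  have hle := Cfsg.Agent.Lib.Lead.pCore_le_sylow'
    (S.mapSurjective (QuotientGroup.mk'_surjective (upperPSeries p G 1).1))
  have hh' := hle hh
  rw [Sylow.coe_mapSurjective] at hh'
  obtain ⟨s, hs, rfl⟩ := hh'
  rw [← map_mul, ← map_mul, hzc s hs]

/-- the image of a Sylow `p`-subgroup in `G / O_{p',p}(G)` has smaller class -/
theorem nilpotencyClass_map_sylow_le {G : Type u} [Group G] [Finite G] {p : ℕ} [Fact p.Prime]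
    (hsol : IsPSolvable p G) (S : Sylow p G) (U : Subgroup G) [U.Normal]
    (hU : U = (upperPSeries p G 2).1) :
    Group.nilpotencyClass ↥((S : Subgroup G).map (QuotientGroup.mk' U))
      ≤ Group.nilpotencyClass ↥(S : Subgroup G) - 1 := by
  haveI : Group.IsNilpotent ↥(S : Subgroup G) := S.isPGroup'.isNilpotent
  have hker : Subgroup.center ↥(S : Subgroup G) ≤
      ((QuotientGroup.mk' U).subgroupMap (S : Subgroup G)).ker := by
    intro z hz
    rw [MonoidHom.mem_ker]
    apply Subtype.ext
    show QuotientGroup.mk' U (z : G) = 1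
    rw [QuotientGroup.mk'_apply, QuotientGroup.eq_one_iff, hU]
    apply center_sylow_le_upperPSeries_two hsol S (z : G) z.2
    intro s hs
    have := (Subgroup.mem_center_iff.mp hz) ⟨s, hs⟩
    exact congrArg Subtype.val this
  have hsurj : Function.Surjective (QuotientGroup.lift (Subgroup.center ↥(S : Subgroup G))
      ((QuotientGroup.mk' U).subgroupMap (S : Subgroup G)) hker) :=
    QuotientGroup.lift_surjective_of_surjective _ _
      (MonoidHom.subgroupMap_surjective _ _) hker
  have h1 := Group.nilpotencyClass_le_of_surjective _ hsurj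
  rw [Group.nilpotencyClass_quotient_center] at h1
  exact h1

/-- the `p`-length of a `p`-solvable group is at most the class of a Sylow `p`-subgroup -/
theorem pLengthLE_of_nilpotencyClass_le {p : ℕ} [Fact p.Prime] :
    ∀ (c : ℕ) (G : Type u) [Group G] [Finite G], IsPSolvable p G → ∀ S : Sylow p G,
      Group.nilpotencyClass ↥(S : Subgroup G) ≤ c → PLengthLE p c G := by
  intro c
  induction c with
  | zero =>
    intro G _ _ hsol S hc
    haveI : Group.IsNilpotent ↥(S : Subgroup G) := S.isPGroup'.isNilpotent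
    have h0 : Group.nilpotencyClass ↥(S : Subgroup G) = 0 := Nat.le_zero.mp hc
    have hsub : Subsingleton ↥(S : Subgroup G) := Group.nilpotencyClass_zero_iff_subsingleton.mp h0
    have hbot : (S : Subgroup G) = ⊥ := Subgroup.eq_bot_of_subsingleton _
    have hnd : ¬ p ∣ Nat.card G := fun hd => S.ne_bot_of_dvd_card hd hbot
    have hcop : (Nat.card (⊤ : Subgroup G)).Coprime p := by
      rw [Subgroup.card_top]
      exact ((Nat.Prime.coprime_iff_not_dvd Fact.out).mpr hnd).symm
    show (upperPSeries p G (2 * 0 + 1)).1 = ⊤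
    have e : (upperPSeries p G (2 * 0 + 1)).1 = pPrimeCore p G := upperPSeries_one p
    rw [e]
    exact top_le_iff.mp (le_pPrimeCore inferInstance hcop)
  | succ c ih =>
    intro G _ _ hsol S hc
    obtain ⟨U, hU⟩ : ∃ U : Subgroup G, U = (upperPSeries p G 2).1 := ⟨_, rfl⟩
    haveI hUn : U.Normal := by rw [hU]; infer_instance
    have hsolq := Cfsg.Agent.Lib.Helper3.isPSolvable_quotient p U hsol
    have hcl := nilpotencyClass_map_sylow_le hsol S U hU
    have hq := ih (G ⧸ U) hsolq (S.mapSurjective (QuotientGroup.mk'_surjective U)) (by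
      rw [Sylow.coe_mapSurjective]
      omega)
    have hshift := upperPSeries_shift p U hU (2 * c + 1)
    show (upperPSeries p G (2 * (c + 1) + 1)).1 = ⊤
    have e : 2 * (c + 1) + 1 = 2 * c + 1 + 2 := by ring
    rw [e, ← hshift]
    have hq' : (upperPSeries p (G ⧸ U) (2 * c + 1)).1 = ⊤ := hq
    rw [hq', Subgroup.comap_top]

end Cfsg.Agent.Lib.Helper2.Comp
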