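import Mathlib
import Cfsg.Prelude.Def_Local
import Cfsg.Agent.Lib.Helper2.PLen3
import Cfsg.Agent.Lib.Helper4.Basic

set_option autoImplicit false
set_option linter.unusedSectionVars false
set_option linter.style.haveILetI false

/-! `p`-length of quotients; derived length of extensions -/

namespace Cfsg.Agent.Lib.Helper2.Comp

open Cfsg

universe u

theorem map_pPrimeCore_le_of_surjective {K K' : Type*} [Group K] [Group K'] [Finite K] (p : ℕ)
    (g : K →* K') (hg : Function.Surjective g) :
    (Cfsg.pPrimeCore p K).map g ≤ Cfsg.pPrimeCore p K' := by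
  apply le_pPrimeCore ((Cfsg.Agent.Lib.Lead.pPrimeCore_normal p K).map _ hg)
  exact Nat.Coprime.coprime_dvd_left (Subgroup.card_map_dvd _ _)
    (Cfsg.Agent.Lib.Lead.pPrimeCore_coprime p)

theorem map_pCore_le_of_surjective {K K' : Type*} [Group K] [Group K'] [Finite K] (p : ℕ)
    (g : K →* K') (hg : Function.Surjective g) :
    (Cfsg.pCore p K).map g ≤ Cfsg.pCore p K' :=
  Cfsg.Agent.Lib.Helper4.le_pCore ((Cfsg.Agent.Lib.Helper4.pCore_normal p K).map _ hg)
    ((Cfsg.Agent.Lib.Helper4.pCore_isPGroup p K).map _)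

/-- monotone transport of a subgroup functor along a surjection -/
theorem transport_core_le {G H : Type u} [Group G] [Group H]
    (X : ∀ (K : Type u) [Group K], Subgroup K)
    (hX : ∀ (K K' : Type u) [Group K] [Group K'] [Finite K] [Finite K'] (g : K →* K'),
      Function.Surjective g → (X K).map g ≤ X K') [Finite G] [Finite H]
    (f : G →* H) (hf : Function.Surjective f) (V : Subgroup G) [V.Normal] (W : Subgroup H)
    [W.Normal] (hVW : V.map f ≤ W) :
    ((X (G ⧸ V)).comap (QuotientGroup.mk' V)).map f ≤ (X (H ⧸ W)).comap (QuotientGroup.mk' W) := by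
  have hle : V ≤ W.comap f := Subgroup.map_le_iff_le_comap.mp hVW
  have hsurj : Function.Surjective (QuotientGroup.map V W f hle) := by
    intro y
    obtain ⟨h, rfl⟩ := QuotientGroup.mk_surjective y
    obtain ⟨g, rfl⟩ := hf h
    exact ⟨QuotientGroup.mk g, rfl⟩
  rintro _ ⟨x, hx, rfl⟩
  have hx' : QuotientGroup.mk' V x ∈ X (G ⧸ V) := hx
  rw [Subgroup.mem_comap]
  have h1 : QuotientGroup.map V W f hle (QuotientGroup.mk' V x) ∈ X (H ⧸ W) :=
    hX _ _ _ hsurj ⟨_, hx', rfl⟩
  exact h1

/-- the image of the upper `p`-series lies in the upper `p`-series of the quotient -/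
theorem map_upperPSeries_le {G : Type u} [Group G] [Finite G] (p : ℕ) [Fact p.Prime]
    (N : Subgroup G) [N.Normal] (n : ℕ) :
    ((upperPSeries p G n).1).map (QuotientGroup.mk' N) ≤ (upperPSeries p (G ⧸ N) n).1 := by
  induction n with
  | zero =>
    show (⊥ : Subgroup G).map (QuotientGroup.mk' N) ≤ _
    rw [Subgroup.map_bot]; exact bot_le
  | succ n ih =>
    by_cases hn : Even n
    · rw [upperPSeries_succ_even (G := G ⧸ N) p n hn, upperPSeries_succ_even (G := G) p n hn]
      exact transport_core_le (fun K _ => pPrimeCore p K)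
        (fun K K' _ _ _ _ g hg => map_pPrimeCore_le_of_surjective p g hg)
        (QuotientGroup.mk' N) (QuotientGroup.mk'_surjective N) _ _ ih
    · rw [upperPSeries_succ_odd (G := G ⧸ N) p n hn, upperPSeries_succ_odd (G := G) p n hn]
      exact transport_core_le (fun K _ => pCore p K)
        (fun K K' _ _ _ _ g hg => map_pCore_le_of_surjective p g hg)
        (QuotientGroup.mk' N) (QuotientGroup.mk'_surjective N) _ _ ih

/-- quotients have no larger `p`-length -/
theorem pLengthLE_quotient {G : Type u} [Group G] [Finite G] (p : ℕ) [Fact p.Prime]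
    (N : Subgroup G) [N.Normal] (l : ℕ) (h : PLengthLE p l G) : PLengthLE p l (G ⧸ N) := by
  have h1 := map_upperPSeries_le p N (2 * l + 1)
  have h2 : (upperPSeries p G (2 * l + 1)).1 = ⊤ := h
  rw [h2, Subgroup.map_top_of_surjective _ (QuotientGroup.mk'_surjective N)] at h1
  exact top_le_iff.mp h1

/-- the quotient by `O_{p',p}(G)` has `p`-length one less -/
theorem pLengthLE_quotient_two {G : Type u} [Group G] [Finite G] (p : ℕ) [Fact p.Prime]
    (U : Subgroup G) [U.Normal] (hU : U = (upperPSeries p G 2).1) (l : ℕ)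
    (h : PLengthLE p (l + 1) G) : PLengthLE p l (G ⧸ U) := by
  have hshift := upperPSeries_shift p U hU (2 * l + 1)
  have h2 : (upperPSeries p G (2 * (l + 1) + 1)).1 = ⊤ := h
  have e : 2 * (l + 1) + 1 = 2 * l + 1 + 2 := by ring
  rw [e, ← hshift] at h2
  show (upperPSeries p (G ⧸ U) (2 * l + 1)).1 = ⊤
  apply Subgroup.comap_injective (QuotientGroup.mk'_surjective U)
  rw [h2, Subgroup.comap_top]

/-- derived length of an extension -/
theorem derivedSeries_add_eq_bot {G : Type*} [Group G] (N : Subgroup G) [N.Normal] (a b : ℕ)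
    (ha : derivedSeries (G ⧸ N) a = ⊥) (hb : derivedSeries ↥N b = ⊥) :
    derivedSeries G (a + b) = ⊥ := by
  have h1 : derivedSeries G a ≤ N := by
    have := map_derivedSeries_le_derivedSeries (QuotientGroup.mk' N) a
    rw [ha, le_bot_iff, Subgroup.map_eq_bot_iff, QuotientGroup.ker_mk'] at this
    exact this
  have h2 : ∀ k, derivedSeries G (a + k) ≤ (derivedSeries ↥N k).map N.subtype := by
    intro k
    induction k with
    | zero =>
      rw [derivedSeries_zero, ← MonoidHom.range_eq_map, Subgroup.range_subtype]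
      exact h1
    | succ k ih =>
      rw [← add_assoc, derivedSeries_succ, derivedSeries_succ, Subgroup.map_commutator]
      exact Subgroup.commutator_mono ih ih
  have h3 := h2 b
  rw [hb, Subgroup.map_bot] at h3
  exact le_bot_iff.mp h3

end Cfsg.Agent.Lib.Helper2.Comp
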