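import Mathlib
import Cfsg.Prelude.Def_Local
import Cfsg.Agent.Lib.Helper2.PLen4
import Cfsg.Agent.Lib.Helper4.PPrime

set_option autoImplicit false
set_option linter.unusedSectionVars false
set_option linter.style.haveILetI false

/-! `p`-length: inheritance by normal subgroups, and subadditivity along extensions -/

namespace Cfsg.Agent.Lib.Helper2.PLen5

open Cfsg
open Cfsg.Agent.Lib.Helper2.Comp

universe u

theorem coprime_card_of_forall_pow {D : Type*} [Group D] [Finite D] (p : ℕ) [Fact p.Prime] (m : ℕ)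
    (hm : m.Coprime p) (h : ∀ d : D, d ^ m = 1) : (Nat.card D).Coprime p := by
  have hp : p.Prime := Fact.out
  rw [Nat.coprime_comm, Nat.Prime.coprime_iff_not_dvd hp]
  intro hdvd
  obtain ⟨d, hd⟩ := exists_prime_orderOf_dvd_card' p hdvd
  have h1 : p ∣ m := by rw [← hd]; exact orderOf_dvd_of_pow_eq_one (h d)
  have h2 : p ∣ Nat.gcd m p := Nat.dvd_gcd h1 dvd_rfl
  rw [Nat.Coprime.gcd_eq_one hm] at h2
  exact hp.one_lt.ne' (Nat.dvd_one.mp h2)

theorem le_comap_pPrimeCore {K : Type*} [Group K] [Finite K] (p : ℕ) [Fact p.Prime]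
    (A X : Subgroup K) [A.Normal] (hX : X.Normal) (m : ℕ) (hm : m.Coprime p)
    (h : ∀ x ∈ X, x ^ m ∈ A) : X ≤ (pPrimeCore p (K ⧸ A)).comap (QuotientGroup.mk' A) := by
  have hD : (X.map (QuotientGroup.mk' A)).Normal :=
    Subgroup.Normal.map hX _ (QuotientGroup.mk'_surjective A)
  have hc : (Nat.card (X.map (QuotientGroup.mk' A))).Coprime p := by
    apply coprime_card_of_forall_pow p m hm
    rintro ⟨d, x, hx, rfl⟩
    apply Subtype.ext
    show (QuotientGroup.mk' A x) ^ m = 1
    rw [← map_pow]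
    exact (QuotientGroup.eq_one_iff _).mpr (h x hx)
  intro x hx
  rw [Subgroup.mem_comap]
  exact (le_pPrimeCore hD hc) ⟨x, hx, rfl⟩

theorem le_comap_pCore {K : Type*} [Group K] [Finite K] (p : ℕ) [Fact p.Prime]
    (A X : Subgroup K) [A.Normal] (hX : X.Normal)
    (h : ∀ x ∈ X, ∃ k : ℕ, x ^ (p ^ k) ∈ A) :
    X ≤ (pCore p (K ⧸ A)).comap (QuotientGroup.mk' A) := by
  have hD : (X.map (QuotientGroup.mk' A)).Normal :=
    Subgroup.Normal.map hX _ (QuotientGroup.mk'_surjective A)
  have hc : IsPGroup p (X.map (QuotientGroup.mk' A)) := by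
    rintro ⟨d, x, hx, rfl⟩
    obtain ⟨k, hk⟩ := h x hx
    refine ⟨k, ?_⟩
    apply Subtype.ext
    show (QuotientGroup.mk' A x) ^ (p ^ k) = 1
    rw [← map_pow]
    exact (QuotientGroup.eq_one_iff _).mpr hk
  intro x hx
  rw [Subgroup.mem_comap]
  exact (Cfsg.Agent.Lib.Helper4.le_pCore hD hc) ⟨x, hx, rfl⟩

theorem pow_mem_of_mem_comap_pPrimeCore {K : Type*} [Group K] [Finite K] (p : ℕ)
    (A : Subgroup K) [A.Normal] {x : K}
    (hx : x ∈ (pPrimeCore p (K ⧸ A)).comap (QuotientGroup.mk' A)) :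
    x ^ (Nat.card (pPrimeCore p (K ⧸ A))) ∈ A := by
  rw [Subgroup.mem_comap] at hx
  have h1 : (⟨QuotientGroup.mk' A x, hx⟩ : pPrimeCore p (K ⧸ A)) ^
      (Nat.card (pPrimeCore p (K ⧸ A))) = 1 := pow_card_eq_one'
  have h2 : (QuotientGroup.mk' A x) ^ (Nat.card (pPrimeCore p (K ⧸ A))) = 1 :=
    congrArg Subtype.val h1
  rw [← map_pow] at h2
  exact (QuotientGroup.eq_one_iff _).mp h2

theorem pow_mem_of_mem_comap_pCore {K : Type*} [Group K] [Finite K] (p : ℕ) [Fact p.Prime]
    (A : Subgroup K) [A.Normal] {x : K}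
    (hx : x ∈ (pCore p (K ⧸ A)).comap (QuotientGroup.mk' A)) : ∃ k : ℕ, x ^ (p ^ k) ∈ A := by
  rw [Subgroup.mem_comap] at hx
  obtain ⟨k, hk⟩ := (Cfsg.Agent.Lib.Helper4.pCore_isPGroup p (K ⧸ A)) ⟨_, hx⟩
  refine ⟨k, ?_⟩
  have h2 : (QuotientGroup.mk' A x) ^ (p ^ k) = 1 := congrArg Subtype.val hk
  rw [← map_pow] at h2
  exact (QuotientGroup.eq_one_iff _).mp h2

/-- the basic step: a normal subgroup whose elements have powers (with exponents controlled by a
term of an upper `p`-series elsewhere) in the `n'`-th term lies in the next term -/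
theorem upperPSeries_step {K K' : Type*} [Group K] [Group K'] [Finite K] [Finite K'] (p : ℕ)
    [Fact p.Prime] (n n' : ℕ) (hpar : Even n ↔ Even n') (X : Subgroup K') (hX : X.Normal)
    (h : ∀ x ∈ X, ∃ y ∈ (upperPSeries p K (n + 1)).1,
      ∀ m : ℕ, y ^ m ∈ (upperPSeries p K n).1 → x ^ m ∈ (upperPSeries p K' n').1) :
    X ≤ (upperPSeries p K' (n' + 1)).1 := by
  by_cases hn : Even n
  · have hn' : Even n' := hpar.mp hn
    rw [upperPSeries_succ_even (G := K') p n' hn']
    apply le_comap_pPrimeCore p _ X hX (Nat.card (pPrimeCore p (K ⧸ (upperPSeries p K n).1)))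
      (Cfsg.Agent.Lib.Helper4.pPrimeCore_coprime p _)
    intro x hx
    obtain ⟨y, hy, hyx⟩ := h x hx
    rw [upperPSeries_succ_even (G := K) p n hn] at hy
    exact hyx _ (pow_mem_of_mem_comap_pPrimeCore p _ hy)
  · have hn' : ¬ Even n' := fun h' => hn (hpar.mpr h')
    rw [upperPSeries_succ_odd (G := K') p n' hn']
    apply le_comap_pCore p _ X hX
    intro x hx
    obtain ⟨y, hy, hyx⟩ := h x hx
    rw [upperPSeries_succ_odd (G := K) p n hn] at hy
    obtain ⟨k, hk⟩ := pow_mem_of_mem_comap_pCore p _ hy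
    exact ⟨k, hyx _ hk⟩

theorem map_upperPSeries_le_of_surjective {K K' : Type*} [Group K] [Group K'] [Finite K]
    [Finite K'] (p : ℕ) [Fact p.Prime] (f : K →* K') (hf : Function.Surjective f) (n : ℕ) :
    ((upperPSeries p K n).1).map f ≤ (upperPSeries p K' n).1 := by
  induction n with
  | zero =>
    show (⊥ : Subgroup K).map f ≤ _
    rw [Subgroup.map_bot]; exact bot_le
  | succ n ih =>
    apply upperPSeries_step (K := K) p n n Iff.rfl _
      (Subgroup.Normal.map (upperPSeries p K (n + 1)).2 f hf)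
    rintro x ⟨y, hy, rfl⟩
    refine ⟨y, hy, fun m hm => ?_⟩
    rw [← map_pow]
    exact ih ⟨_, hm, rfl⟩

theorem pLengthLE_of_surjective {K K' : Type*} [Group K] [Group K'] [Finite K]
    [Finite K'] (p : ℕ) [Fact p.Prime] (f : K →* K') (hf : Function.Surjective f) (k : ℕ)
    (h : PLengthLE p k K) : PLengthLE p k K' := by
  have h1 := map_upperPSeries_le_of_surjective p f hf (2 * k + 1)
  have h2 : (upperPSeries p K (2 * k + 1)).1 = ⊤ := h
  rw [h2, Subgroup.map_top_of_surjective _ hf] at h1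
  exact top_le_iff.mp h1

theorem upperPSeries_subgroupOf_le {G : Type*} [Group G] [Finite G] (p : ℕ) [Fact p.Prime]
    (N : Subgroup G) [N.Normal] (n : ℕ) :
    ((upperPSeries p G n).1).subgroupOf N ≤ (upperPSeries p ↥N n).1 := by
  induction n with
  | zero =>
    show (⊥ : Subgroup G).subgroupOf N ≤ _
    rw [Subgroup.bot_subgroupOf]; exact bot_le
  | succ n ih =>
    apply upperPSeries_step (K := G) p n n Iff.rfl _
      (Subgroup.Normal.subgroupOf (upperPSeries p G (n + 1)).2 N)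
    intro x hx
    refine ⟨(x : G), Subgroup.mem_subgroupOf.mp hx, fun m hm => ?_⟩
    apply ih
    rw [Subgroup.mem_subgroupOf, Subgroup.coe_pow]
    exact hm

/-- normal subgroups have no larger `p`-length -/
theorem pLengthLE_normal {G : Type*} [Group G] [Finite G] (p : ℕ) [Fact p.Prime]
    (N : Subgroup G) [N.Normal] (k : ℕ) (h : PLengthLE p k G) : PLengthLE p k ↥N := by
  have h1 := upperPSeries_subgroupOf_le p N (2 * k + 1)
  have h2 : (upperPSeries p G (2 * k + 1)).1 = ⊤ := h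
  rw [h2, Subgroup.top_subgroupOf] at h1
  exact top_le_iff.mp h1

theorem upperPSeries_le_succ {G : Type*} [Group G] (p : ℕ) (n : ℕ) :
    (upperPSeries p G n).1 ≤ (upperPSeries p G (n + 1)).1 := by
  intro x hx
  by_cases hn : Even n
  · rw [upperPSeries_succ_even p n hn, Subgroup.mem_comap]
    have h0 : QuotientGroup.mk' (upperPSeries p G n).1 x = 1 := (QuotientGroup.eq_one_iff x).mpr hx
    rw [h0]; exact one_mem _
  · rw [upperPSeries_succ_odd p n hn, Subgroup.mem_comap]
    have h0 : QuotientGroup.mk' (upperPSeries p G n).1 x = 1 := (QuotientGroup.eq_one_iff x).mpr hx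
    rw [h0]; exact one_mem _

theorem map_subtype_upperPSeries_normal {G : Type*} [Group G] [Finite G] (p : ℕ) [Fact p.Prime]
    (N : Subgroup G) [hN : N.Normal] (n : ℕ) :
    (((upperPSeries p ↥N n).1).map N.subtype).Normal := by
  constructor
  rintro _ ⟨y, hy, rfl⟩ g
  have h1 := map_upperPSeries_le_of_surjective p (MulAut.conjNormal g : ↥N ≃* ↥N).toMonoidHom
    (MulEquiv.surjective _) n
  have h2 : (MulAut.conjNormal g : ↥N ≃* ↥N) y ∈ (upperPSeries p ↥N n).1 := h1 ⟨y, hy, rfl⟩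
  exact ⟨_, h2, MulAut.conjNormal_apply g y⟩

theorem map_subtype_upperPSeries_le {G : Type*} [Group G] [Finite G] (p : ℕ) [Fact p.Prime]
    (N : Subgroup G) [N.Normal] (n : ℕ) :
    ((upperPSeries p ↥N n).1).map N.subtype ≤ (upperPSeries p G n).1 := by
  induction n with
  | zero =>
    show (⊥ : Subgroup ↥N).map N.subtype ≤ _
    rw [Subgroup.map_bot]; exact bot_le
  | succ n ih =>
    apply upperPSeries_step (K := ↥N) p n n Iff.rfl _ (map_subtype_upperPSeries_normal p N (n + 1))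
    rintro x ⟨y, hy, rfl⟩
    refine ⟨y, hy, fun m hm => ?_⟩
    rw [← map_pow]
    exact ih ⟨_, hm, rfl⟩

/-- `p`-length is subadditive along extensions -/
theorem pLengthLE_extension {G : Type u} [Group G] [Finite G] (p : ℕ) [Fact p.Prime]
    (N : Subgroup G) [N.Normal] (a b : ℕ) (ha : PLengthLE p a ↥N) (hb : PLengthLE p b (G ⧸ N)) :
    PLengthLE p (a + b) G := by
  obtain ⟨W, hW⟩ : ∃ W : Subgroup G, W = (upperPSeries p G (2 * a + 1)).1 := ⟨_, rfl⟩
  haveI hWn : W.Normal := hW ▸ (upperPSeries p G (2 * a + 1)).2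
  have hNW : N ≤ W := by
    have h1 := map_subtype_upperPSeries_le p N (2 * a + 1)
    have h2 : (upperPSeries p ↥N (2 * a + 1)).1 = ⊤ := ha
    rw [h2, ← MonoidHom.range_eq_map, Subgroup.range_subtype] at h1
    rw [hW]; exact h1
  have hsurj : Function.Surjective
      (QuotientGroup.map N W (MonoidHom.id G) (le_of_le_of_eq hNW (Subgroup.comap_id W).symm)) := by
    intro y
    obtain ⟨g, rfl⟩ := QuotientGroup.mk'_surjective W y
    exact ⟨QuotientGroup.mk' N g, rfl⟩
  have hbW : PLengthLE p b (G ⧸ W) := pLengthLE_of_surjective p _ hsurj b hb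
  have hW1 : (upperPSeries p (G ⧸ W) 1).1 = ⊥ := by
    rw [upperPSeries_one]
    exact pPrimeCore_quotient_comap p (upperPSeries p G (2 * a)).1 W
      (hW.trans (upperPSeries_succ_even p (2 * a) (even_two_mul a)))
  have claim : ∀ j : ℕ, ((upperPSeries p (G ⧸ W) (j + 1)).1).comap (QuotientGroup.mk' W) ≤
      (upperPSeries p G (2 * a + 1 + j)).1 := by
    intro j
    induction j with
    | zero =>
      rw [hW1, MonoidHom.comap_bot, QuotientGroup.ker_mk', hW]
    | succ j ih =>
      apply upperPSeries_step (K := G ⧸ W) p (j + 1) (2 * a + 1 + j)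
        (by rw [Nat.even_iff, Nat.even_iff]; omega) _
        (Subgroup.Normal.comap (upperPSeries p (G ⧸ W) (j + 1 + 1)).2 _)
      intro x hx
      refine ⟨QuotientGroup.mk' W x, Subgroup.mem_comap.mp hx, fun m hm => ?_⟩
      apply ih
      rw [Subgroup.mem_comap, map_pow]
      exact hm
  have h3 := claim (2 * b)
  have h4 : (upperPSeries p (G ⧸ W) (2 * b + 1)).1 = ⊤ := hbW
  rw [h4, Subgroup.comap_top] at h3
  show (upperPSeries p G (2 * (a + b) + 1)).1 = ⊤
  have e : 2 * (a + b) + 1 = 2 * a + 1 + 2 * b := by ring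
  rw [e]; exact top_le_iff.mp h3

theorem pLengthLE_zero_of_coprime {K : Type*} [Group K] [Finite K] (p : ℕ) [Fact p.Prime]
    (h : (Nat.card K).Coprime p) : PLengthLE p 0 K := by
  show (upperPSeries p K (2 * 0 + 1)).1 = ⊤
  rw [show 2 * 0 + 1 = 1 from rfl, upperPSeries_one]
  apply top_le_iff.mp
  apply le_pPrimeCore inferInstance
  rw [Subgroup.card_top]; exact h

theorem pLengthLE_one_of_isPGroup {K : Type*} [Group K] [Finite K] (p : ℕ) [Fact p.Prime]
    (h : IsPGroup p K) : PLengthLE p 1 K := by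
  show (upperPSeries p K (2 * 1 + 1)).1 = ⊤
  have h2 : (upperPSeries p K 2).1 = ⊤ := by
    apply top_le_iff.mp
    rw [upperPSeries_succ_odd p 1 Nat.not_even_one]
    apply le_comap_pCore p _ ⊤ inferInstance
    intro x _
    obtain ⟨k, hk⟩ := h x
    exact ⟨k, by rw [hk]; exact one_mem _⟩
  apply top_le_iff.mp
  rw [← h2]
  exact upperPSeries_le_succ p 2

end Cfsg.Agent.Lib.Helper2.PLen5
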