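import Mathlib
import Cfsg.Prelude
import Cfsg.Agent.Lib.Lead.Transfer
import Cfsg.Agent.Lib.Lead.Coprime
import Cfsg.Agent.Lib.Lead.BaerSuzuki
import Cfsg.Agent.Lib.Lead.Hall
import Cfsg.Agent.S2007

/-! A Tate-type normal `p`-complement criterion: a normal subgroup inside the Frattini subgroup
of a Sylow `p`-subgroup can be factored out. -/

namespace Cfsg.Agent.Lib.Helper2.Tate

open Cfsg.Agent.Lib
open Pointwise

variable {X : Type*} [Group X]

/-- Burnside's transfer theorem modulo a normal subgroup `Q ≥ P'` of the Sylow subgroup `P`. -/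
theorem exists_normal_of_abelian_quot [Finite X] {p : ℕ} [Fact p.Prime] (P : Sylow p X)
    (Q : Subgroup X) [Q.Normal] (hQP : Q ≤ (P : Subgroup X))
    (hcomm : ∀ a ∈ (P : Subgroup X), ∀ b ∈ (P : Subgroup X), a * b * a⁻¹ * b⁻¹ ∈ Q)
    (hnorm : ∀ x ∈ Subgroup.normalizer ((P : Subgroup X) : Set X), ∃ u ∈ (P : Subgroup X),
      ∃ c ∈ Subgroup.centralizer ((P : Subgroup X) : Set X), x = u * c) :
    ∃ K : Subgroup X, K.Normal ∧ Q ≤ K ∧ (∃ m : ℕ, Nat.card K = Nat.card Q * m ∧ m.Coprime p) ∧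
      ∀ x : X, ∃ a : ℕ, x ^ (p ^ a) ∈ K := by
  classical
  have hp : p.Prime := Fact.out
  have hπs : Function.Surjective (QuotientGroup.mk' Q) := QuotientGroup.mk'_surjective Q
  obtain ⟨Pb, hPb⟩ : ∃ Pb : Sylow p (X ⧸ Q), Pb = P.mapSurjective hπs := ⟨_, rfl⟩
  have hPbcoe : (Pb : Subgroup (X ⧸ Q)) = (P : Subgroup X).map (QuotientGroup.mk' Q) := by
    rw [hPb, Sylow.coe_mapSurjective]
  have hNC : Subgroup.normalizer ((Pb : Subgroup (X ⧸ Q)) : Set (X ⧸ Q)) ≤
      Subgroup.centralizer ((Pb : Subgroup (X ⧸ Q)) : Set (X ⧸ Q)) := by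
    intro xb hxb
    obtain ⟨x, rfl⟩ := hπs xb
    have hxN : x ∈ Subgroup.normalizer ((P : Subgroup X) : Set X) := by
      apply Lead.mem_normalizer_of_conj_le
      intro y hy
      have h1 : (QuotientGroup.mk' Q) x * (QuotientGroup.mk' Q) y * ((QuotientGroup.mk' Q) x)⁻¹ ∈
          (Pb : Subgroup (X ⧸ Q)) :=
        (Subgroup.mem_normalizer_iff.mp hxb _).mp (by rw [hPbcoe]; exact Subgroup.mem_map_of_mem _ hy)
      rw [hPbcoe] at h1
      obtain ⟨b, hb, hbe⟩ := h1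
      have h2 : b⁻¹ * (x * y * x⁻¹) ∈ Q := by
        have h3 : (QuotientGroup.mk' Q) (b⁻¹ * (x * y * x⁻¹)) = 1 := by
          rw [map_mul, map_inv, hbe, map_mul, map_mul, map_inv]; group
        exact (QuotientGroup.eq_one_iff _).mp h3
      have e : x * y * x⁻¹ = b * (b⁻¹ * (x * y * x⁻¹)) := by group
      rw [e]
      exact Subgroup.mul_mem _ hb (hQP h2)
    obtain ⟨u, hu, c, hc, rfl⟩ := hnorm x hxN
    rw [Subgroup.mem_centralizer_iff]
    intro yb hyb
    rw [SetLike.mem_coe, hPbcoe] at hyb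
    obtain ⟨y, hy, rfl⟩ := hyb
    rw [← map_mul, ← map_mul]
    apply (QuotientGroup.eq).mpr
    have hcy : c * y = y * c := (Subgroup.mem_centralizer_iff.mp hc y hy).symm
    have hwP : u⁻¹ * y⁻¹ * u * y ∈ (P : Subgroup X) :=
      Subgroup.mul_mem _ (Subgroup.mul_mem _ (Subgroup.mul_mem _ (inv_mem hu) (inv_mem hy)) hu) hy
    have hcw : (u⁻¹ * y⁻¹ * u * y) * c = c * (u⁻¹ * y⁻¹ * u * y) :=
      Subgroup.mem_centralizer_iff.mp hc _ hwP
    have e1 : (y * (u * c))⁻¹ * (u * c * y) = c⁻¹ * ((u⁻¹ * y⁻¹ * u) * (c * y)) := by group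
    rw [e1, hcy, ← mul_assoc (u⁻¹ * y⁻¹ * u) y c, hcw, inv_mul_cancel_left]
    have h4 := hcomm u⁻¹ (inv_mem hu) y⁻¹ (inv_mem hy)
    rwa [inv_inv, inv_inv] at h4
  obtain ⟨P₁, Kb, hKbn, hcK⟩ := Lead.hasNormalPComplement_of_normalizer_le_centralizer Pb hNC
  haveI := hKbn
  refine ⟨Kb.comap (QuotientGroup.mk' Q), hKbn.comap _, ?_, ⟨Nat.card Kb, Lead.card_comap_mk Q Kb, ?_⟩, ?_⟩
  · intro q hq
    rw [Subgroup.mem_comap]
    have : (QuotientGroup.mk' Q) q = 1 := (QuotientGroup.eq_one_iff q).mpr hq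
    rw [this]; exact Subgroup.one_mem _
  · have h1 : (P₁ : Subgroup (X ⧸ Q)).index = Nat.card Kb := hcK.index_eq_card
    rw [← h1]
    exact ((Nat.Prime.coprime_iff_not_dvd hp).mpr P₁.not_dvd_index).symm
  · intro x
    obtain ⟨⟨k, y⟩, hky⟩ := hcK.2 ((QuotientGroup.mk' Q) x)
    obtain ⟨a, ha⟩ := P₁.isPGroup' y
    have ha' : (y : X ⧸ Q) ^ (p ^ a) = 1 := by
      have := congrArg Subtype.val ha
      simpa using this
    refine ⟨a, ?_⟩
    rw [Subgroup.mem_comap, map_pow]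
    have hky' : (k : X ⧸ Q) * (y : X ⧸ Q) = (QuotientGroup.mk' Q) x := hky
    rw [← hky', ← QuotientGroup.eq_one_iff, QuotientGroup.mk_pow, QuotientGroup.mk_mul,
      (QuotientGroup.eq_one_iff (k : X ⧸ Q)).mpr k.2, one_mul, ← QuotientGroup.mk_pow, ha']
    rfl

/-- Tate-type step: `K/Q` a normal `p'`-subgroup with `p`-power index, `Q` consisting of
non-generators of the Sylow subgroup `P`: then `X` has a normal `p`-complement. -/
theorem tate [Finite X] {p : ℕ} [Fact p.Prime] (P : Sylow p X) (Q K : Subgroup X) [Q.Normal]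
    [K.Normal] (hQP : Q ≤ (P : Subgroup X)) (hQK : Q ≤ K)
    (hcard : ∃ m : ℕ, Nat.card K = Nat.card Q * m ∧ m.Coprime p)
    (hpow : ∀ x : X, ∃ a : ℕ, x ^ (p ^ a) ∈ K)
    (hng : ∀ P₁ : Subgroup X, P₁ ≤ (P : Subgroup X) →
      (∀ y ∈ (P : Subgroup X), ∃ n ∈ Q, n⁻¹ * y ∈ P₁) → (P : Subgroup X) ≤ P₁) :
    Cfsg.HasNormalPComplement p X := by
  classical
  have hp : p.Prime := Fact.out
  obtain ⟨m, hKm, hmp⟩ := hcard
  have hQp : IsPGroup p Q := P.isPGroup'.to_le hQP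
  obtain ⟨k, hk⟩ := IsPGroup.iff_card.mp hQp
  have hQ'card : Nat.card (Q.subgroupOf K) = Nat.card Q :=
    Nat.card_congr (Subgroup.subgroupOfEquivOfLe hQK).toEquiv
  have hidx : (Q.subgroupOf K).index = m := by
    have h1 := Subgroup.card_mul_index (Q.subgroupOf K)
    rw [hQ'card, hKm] at h1
    exact Nat.eq_of_mul_eq_mul_left Nat.card_pos h1
  have hpm : (p ^ k).Coprime m := Nat.Coprime.pow_left k hmp.symm
  have hcop' : (Nat.card (Q.subgroupOf K)).Coprime (Q.subgroupOf K).index := by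
    rw [hQ'card, hidx, hk]; exact hpm
  obtain ⟨H', hH'⟩ := Subgroup.exists_right_complement'_of_coprime hcop'
  obtain ⟨H, hH⟩ : ∃ H : Subgroup X, H = H'.map K.subtype := ⟨_, rfl⟩
  have hHcard : Nat.card H = m := by
    rw [hH, Subgroup.card_map_of_injective K.subtype_injective, ← hidx]
    exact hH'.symm.index_eq_card.symm
  have hHK : H ≤ K := by rw [hH]; exact Subgroup.map_subtype_le _
  have hdec : ∀ y ∈ K, ∃ q ∈ Q, ∃ h ∈ H, y = q * h := by
    intro y hy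
    obtain ⟨⟨a, b⟩, hab⟩ := hH'.2 ⟨y, hy⟩
    refine ⟨((a : ↥K) : X), a.2, ((b : ↥K) : X), ?_, ?_⟩
    · rw [hH]; exact ⟨(b : ↥K), b.2, rfl⟩
    · have h1 : (a : ↥K) * (b : ↥K) = ⟨y, hy⟩ := hab
      have h2 := congrArg Subtype.val h1
      exact h2.symm
  have hQH : (Nat.card Q).Coprime (Nat.card H) := by rw [hHcard, hk]; exact hpm
  have hdisj : ∀ z, z ∈ Q → z ∈ H → z = 1 := by
    intro z hzQ hzH
    exact Subgroup.disjoint_def.mp (Subgroup.disjoint_of_coprime_natCard hQH) hzQ hzH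
  have hQsolv : Group.IsSolvable Q := by
    haveI := hQp.isNilpotent
    infer_instance
  have hconj : ∀ x : X, ∃ n ∈ Q, MulAut.conj n • H = MulAut.conj x • H := by
    intro x
    apply Lead.sz_conj Q H (MulAut.conj x • H)
    · rw [Subgroup.normalizer_eq_top]; exact le_top
    · intro z hz
      rw [Lead.mem_conj_smul] at hz
      have hzK : z ∈ K := by
        have h1 := (inferInstance : K.Normal).conj_mem _ (hHK hz) x
        have e : x * (x⁻¹ * z * x) * x⁻¹ = z := by group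
        rwa [e] at h1
      obtain ⟨q, hq, h, hh, rfl⟩ := hdec z hzK
      exact Subgroup.mul_mem _ ((le_sup_left : Q ≤ Q ⊔ H) hq) ((le_sup_right : H ≤ Q ⊔ H) hh)
    · exact Lead.card_conj_smul x H
    · exact hQH
    · exact Or.inl hQsolv
  have hPN : (P : Subgroup X) ≤ Subgroup.normalizer (H : Set X) := by
    have h1 := hng ((P : Subgroup X) ⊓ Subgroup.normalizer (H : Set X)) inf_le_left ?_
    · exact h1.trans inf_le_right
    · intro y hy
      obtain ⟨n, hn, hnH⟩ := hconj y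
      refine ⟨n, hn, Subgroup.mul_mem _ (inv_mem (hQP hn)) hy, ?_⟩
      apply Lead.mem_normalizer_of_conj_le
      intro d hd
      have h2 : y * d * y⁻¹ ∈ MulAut.conj n • H := by rw [hnH]; exact Lead.conj_mem_conj_smul hd
      rw [Lead.mem_conj_smul] at h2
      have e : n⁻¹ * y * d * (n⁻¹ * y)⁻¹ = n⁻¹ * (y * d * y⁻¹) * n := by group
      rw [e]; exact h2
  have hQC : ∀ q ∈ Q, ∀ h ∈ H, q * h = h * q := by
    intro q hq h hh
    have h1 : q * h * q⁻¹ * h⁻¹ ∈ Q := by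
      have e : q * h * q⁻¹ * h⁻¹ = q * (h * q⁻¹ * h⁻¹) := by group
      rw [e]; exact Q.mul_mem hq ((inferInstance : Q.Normal).conj_mem _ (Q.inv_mem hq) h)
    have h2 : q * h * q⁻¹ * h⁻¹ ∈ H :=
      H.mul_mem ((Subgroup.mem_normalizer_iff.mp (hPN (hQP hq)) h).mp hh) (H.inv_mem hh)
    have h3 := hdisj _ h1 h2
    have e : q * h = (q * h * q⁻¹ * h⁻¹) * (h * q) := by group
    rw [e, h3, one_mul]
  have hHn : H.Normal := by
    constructor
    intro h hh x
    obtain ⟨n, hn, hnH⟩ := hconj x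
    have h2 : x * h * x⁻¹ ∈ MulAut.conj n • H := by rw [hnH]; exact Lead.conj_mem_conj_smul hh
    rw [Lead.mem_conj_smul] at h2
    have e : x * h * x⁻¹ = n * (n⁻¹ * (x * h * x⁻¹) * n) * n⁻¹ := by group
    rw [e, hQC n hn _ h2, mul_assoc, mul_inv_cancel, mul_one]
    exact h2
  haveI := hHn
  apply Cfsg.Agent.S2007.hasNormalPComplement_of_normal H
  · rw [hHcard]; exact hmp
  · intro x
    obtain ⟨a, ha⟩ := hpow x
    obtain ⟨q, hq, h, hh, hqh⟩ := hdec _ ha
    obtain ⟨b, hb⟩ := hQp ⟨q, hq⟩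
    have hb' : q ^ (p ^ b) = 1 := by
      have := congrArg Subtype.val hb
      simpa using this
    refine ⟨a + b, ?_⟩
    rw [pow_add, pow_mul, hqh, (show Commute q h from hQC q hq h hh).mul_pow, hb', one_mul]
    exact H.pow_mem hh _

end Cfsg.Agent.Lib.Helper2.Tate
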